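import Mathlib

set_option autoImplicit false
set_option linter.unusedSectionVars false

namespace Cfsg.Agent.Lib.Helper81

open Matrix

section ACL

variable {R : Type*} [Fintype R] [DecidableEq R]

/-- matrix determinant lemma over a field -/
theorem det_sub_vecMulVec_field {F : Type*} [Field F] (A : Matrix R R F) (hA : A.det ≠ 0)
    (u v : R → F) :
    (A - vecMulVec u v).det = A.det - v ⬝ᵥ (A.adjugate *ᵥ u) := by
  have h := det_add_replicateCol_mul_replicateRow (ι := Unit) (A := A)
    (isUnit_iff_ne_zero.2 hA) (-u) v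
  have e1 : A + replicateCol Unit (-u) * replicateRow Unit v = A - vecMulVec u v := by
    rw [vecMulVec_eq Unit, sub_eq_add_neg]
    congr 1
    ext i j
    simp [Matrix.mul_apply]
  rw [e1] at h
  have e2 : (1 + replicateRow Unit v * A⁻¹ * replicateCol Unit (-u)).det
      = 1 - (A.det)⁻¹ * (v ⬝ᵥ (A.adjugate *ᵥ u)) := by
    rw [det_unique, Matrix.add_apply, Matrix.one_apply_eq, ← replicateRow_vecMul,
      replicateRow_mul_replicateCol_apply, ← dotProduct_mulVec, Matrix.inv_def,
      Ring.inverse_eq_inv', mulVec_neg, dotProduct_neg, smul_mulVec, dotProduct_smul, smul_eq_mul]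
    ring
  rw [h, e2]
  field_simp

/-- matrix determinant lemma over `ℤ`, nonsingular case -/
theorem det_sub_vecMulVec_int (A : Matrix R R ℤ) (hA : A.det ≠ 0) (u v : R → ℤ) :
    (A - vecMulVec u v).det = A.det - v ⬝ᵥ (A.adjugate *ᵥ u) := by
  have hinj : Function.Injective (Int.castRingHom ℚ) := Int.cast_injective
  apply hinj
  have h := det_sub_vecMulVec_field ((Int.castRingHom ℚ).mapMatrix A)
    (by rw [← RingHom.map_det]; simpa using hA) (fun i => (u i : ℚ)) (fun i => (v i : ℚ))
  have e1 : (Int.castRingHom ℚ).mapMatrix (A - vecMulVec u v)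
      = (Int.castRingHom ℚ).mapMatrix A - vecMulVec (fun i => (u i : ℚ)) (fun i => (v i : ℚ)) := by
    ext i j
    simp [vecMulVec_apply]
  rw [RingHom.map_det, e1, h, ← RingHom.map_det, ← RingHom.map_adjugate]
  simp [dotProduct, mulVec]


variable {X : Type*}

/-- the Gram matrix attached to a family of columns -/
def gramS (w : X → R → ℤ) (S : Finset X) : Matrix R R ℤ := ∑ x ∈ S, vecMulVec (w x) (w x)

theorem gramS_mulVec (w : X → R → ℤ) (S : Finset X) (y : R → ℤ) :
    gramS w S *ᵥ y = ∑ x ∈ S, (w x ⬝ᵥ y) • w x := by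
  ext i
  simp only [gramS, mulVec, dotProduct, Matrix.sum_apply, vecMulVec_apply, Finset.sum_apply,
    Pi.smul_apply, smul_eq_mul, Finset.sum_mul]
  rw [Finset.sum_comm]
  apply Finset.sum_congr rfl; intro x _
  apply Finset.sum_congr rfl; intro j _
  ring

theorem gramS_quad (w : X → R → ℤ) (S : Finset X) (y : R → ℤ) :
    y ⬝ᵥ (gramS w S *ᵥ y) = ∑ x ∈ S, (w x ⬝ᵥ y) ^ 2 := by
  rw [gramS_mulVec, dotProduct_sum]
  apply Finset.sum_congr rfl; intro x _
  rw [dotProduct_smul, dotProduct_comm, smul_eq_mul, sq]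

theorem gramS_det_nonneg (w : X → R → ℤ) (S : Finset X) : 0 ≤ (gramS w S).det := by
  have h : ((Int.castRingHom ℝ).mapMatrix (gramS w S)).PosSemidef := by
    have e : (Int.castRingHom ℝ).mapMatrix (gramS w S)
        = ∑ x ∈ S, vecMulVec (fun i => (w x i : ℝ)) (star (fun i => (w x i : ℝ))) := by
      rw [gramS, map_sum]
      apply Finset.sum_congr rfl; intro x _
      ext i j
      simp [vecMulVec_apply]
    rw [e]
    exact posSemidef_sum _ (fun x _ => posSemidef_vecMulVec_self_star _)
  have h2 := h.det_nonneg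
  rw [← RingHom.map_det] at h2
  simpa using h2

theorem gramS_tau_pos (w : X → R → ℤ) (S : Finset X) (hd : (gramS w S).det ≠ 0) {u : R → ℤ}
    (hu : u ≠ 0) : 1 ≤ u ⬝ᵥ ((gramS w S).adjugate *ᵥ u) := by
  set 𝒢 := gramS w S with h𝒢
  have hd0 : 0 < 𝒢.det := lt_of_le_of_ne (gramS_det_nonneg w S) (Ne.symm hd)
  set y := 𝒢.adjugate *ᵥ u with hy
  have h1 : 𝒢 *ᵥ y = 𝒢.det • u := by
    rw [hy, mulVec_mulVec, mul_adjugate, smul_mulVec, one_mulVec]
  have h2 : 𝒢.det * (u ⬝ᵥ y) = ∑ x ∈ S, (w x ⬝ᵥ y) ^ 2 := by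
    rw [← gramS_quad, ← h𝒢, h1, dotProduct_smul, smul_eq_mul, dotProduct_comm]
  have h3 : 0 ≤ ∑ x ∈ S, (w x ⬝ᵥ y) ^ 2 := Finset.sum_nonneg (fun x _ => sq_nonneg _)
  have h4 : ∑ x ∈ S, (w x ⬝ᵥ y) ^ 2 ≠ 0 := by
    intro h0
    have h5 : ∀ x ∈ S, w x ⬝ᵥ y = 0 := by
      intro x hx
      have := (Finset.sum_eq_zero_iff_of_nonneg (fun x _ => sq_nonneg (w x ⬝ᵥ y))).1 h0 x hx
      exact pow_eq_zero_iff (two_ne_zero) |>.1 this
    have h6 : 𝒢 *ᵥ y = 0 := by
      rw [h𝒢, gramS_mulVec]
      apply Finset.sum_eq_zero; intro x hx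
      rw [h5 x hx, zero_smul]
    rw [h1] at h6
    rcases smul_eq_zero.1 h6 with h7 | h7
    · exact hd h7
    · exact hu h7
  have h5 : 0 < 𝒢.det * (u ⬝ᵥ y) := by rw [h2]; exact lt_of_le_of_ne h3 (Ne.symm h4)
  have h6 : 0 < u ⬝ᵥ y := by
    by_contra hneg
    push Not at hneg
    nlinarith
  exact h6

theorem gramS_sum_tau (w : X → R → ℤ) (S : Finset X) :
    ∑ x ∈ S, w x ⬝ᵥ ((gramS w S).adjugate *ᵥ w x) = Fintype.card R * (gramS w S).det := by
  have h1 : ∀ (N : Matrix R R ℤ) (u : R → ℤ), u ⬝ᵥ (N *ᵥ u) = (N * vecMulVec u u).trace := by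
    intro N u
    simp only [dotProduct, mulVec, Matrix.trace, Matrix.diag_apply, Matrix.mul_apply,
      vecMulVec_apply, Finset.mul_sum]
    apply Finset.sum_congr rfl; intro i _
    apply Finset.sum_congr rfl; intro j _
    ring
  have h2 : ∑ x ∈ S, w x ⬝ᵥ ((gramS w S).adjugate *ᵥ w x)
      = ((gramS w S).adjugate * gramS w S).trace := by
    conv_rhs => rw [gramS, Finset.mul_sum, Matrix.trace_sum]
    apply Finset.sum_congr rfl; intro x _
    rw [h1]; rfl
  rw [h2, adjugate_mul, Matrix.trace_smul, Matrix.trace_one, smul_eq_mul, mul_comm]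

theorem gramS_erase [DecidableEq X] (w : X → R → ℤ) (S : Finset X) {x : X} (hx : x ∈ S) :
    gramS w (S.erase x) = gramS w S - vecMulVec (w x) (w x) := by
  rw [gramS, gramS, ← Finset.add_sum_erase S _ hx]
  abel

/-- **Adding columns lemma.** -/
theorem gramS_card_le [DecidableEq X] (w : X → R → ℤ) (hw : ∀ x, w x ≠ 0) (S : Finset X) :
    (gramS w S).det ≠ 0 → (S.card : ℤ) + 1 ≤ (gramS w S).det + Fintype.card R := by
  induction S using Finset.strongInduction with
  | H S ih =>
    intro hd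
    have hd0 : 0 < (gramS w S).det := lt_of_le_of_ne (gramS_det_nonneg w S) (Ne.symm hd)
    have hdel : ∀ x ∈ S, (gramS w (S.erase x)).det
        = (gramS w S).det - w x ⬝ᵥ ((gramS w S).adjugate *ᵥ w x) := by
      intro x hx
      rw [gramS_erase w S hx, det_sub_vecMulVec_int _ hd]
    by_cases h : ∃ x ∈ S, (gramS w (S.erase x)).det ≠ 0
    · obtain ⟨x, hx, hne⟩ := h
      have h1 := ih (S.erase x) (Finset.erase_ssubset hx) hne
      have h2 := gramS_tau_pos w S hd (hw x)
      rw [hdel x hx, Finset.card_erase_of_mem hx] at h1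
      have h3 : 1 ≤ S.card := Finset.card_pos.2 ⟨x, hx⟩
      push_cast [h3] at h1
      linarith
    · push Not at h
      have h1 : ∑ x ∈ S, w x ⬝ᵥ ((gramS w S).adjugate *ᵥ w x) = S.card * (gramS w S).det := by
        have h0 : ∀ x ∈ S, w x ⬝ᵥ ((gramS w S).adjugate *ᵥ w x) = (gramS w S).det := by
          intro x hx
          have := hdel x hx
          rw [h x hx] at this
          exact (sub_eq_zero.1 this.symm).symm
        rw [Finset.sum_congr rfl h0, Finset.sum_const, nsmul_eq_mul]
      rw [gramS_sum_tau] at h1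
      have h2 : (Fintype.card R : ℤ) = S.card := mul_right_cancel₀ hd h1
      rw [h2]
      linarith

end ACL


section RankOne

variable {ι : Type*} [Fintype ι] [DecidableEq ι]

theorem pow_card_dvd_mul_det {p : ℕ} (hp : p.Prime) (W : Matrix ι ι ℤ) (a : ℤ) (u : ι → ℤ)
    (h : ∀ i j, (p : ℤ) ∣ W i j - a * u i * u j) :
    (p : ℤ) ^ Fintype.card ι ∣ p * W.det := by
  by_cases hu : ∀ j, (p : ℤ) ∣ u j
  · have h1 : ∀ i j, (p : ℤ) ∣ W i j := by
      intro i j
      have := dvd_add (h i j) (Dvd.dvd.mul_left (hu j) (a * u i))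
      rwa [sub_add_cancel] at this
    choose W' hW' using h1
    have e : W = (p : ℤ) • (Matrix.of W') := by
      ext i j; simp [hW' i j]
    rw [e, det_smul]
    exact Dvd.dvd.mul_left (Dvd.intro _ rfl) _
  · push Not at hu
    obtain ⟨j0, hj0⟩ := hu
    have hcop : IsCoprime (u j0) (p : ℤ) := by
      have hp' : Prime (p : ℤ) := Nat.prime_iff_prime_int.1 hp
      exact ((hp'.coprime_iff_not_dvd).2 hj0).symm
    obtain ⟨v, b, hvb⟩ := hcop
    set y : ι → ℤ := fun j => if j = j0 then 0 else - v * u j with hy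
    set E : Matrix ι ι ℤ := 1 + replicateCol Unit (Pi.single j0 (1 : ℤ)) * replicateRow Unit y with hE
    have hdetE : E.det = 1 := by
      rw [hE, det_one_add_replicateCol_mul_replicateRow, dotProduct_single, hy]
      simp
    have hWE : ∀ i j, (W * E) i j = W i j + W i j0 * y j := by
      intro i j
      rw [hE, Matrix.mul_add, Matrix.mul_one, Matrix.add_apply, ← Matrix.mul_assoc,
        Matrix.mul_apply]
      simp [Matrix.mul_apply, Pi.single_apply]
    set d : ι → ℤ := fun j => if j = j0 then 1 else (p : ℤ) with hd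
    have hdv : ∀ i j, d j ∣ (W * E) i j := by
      intro i j
      by_cases hj : j = j0
      · simp [hd, hj]
      · simp only [hd, if_neg hj, hWE, hy]
        have h1 := h i j
        have h2 := h i j0
        have e : W i j + W i j0 * (-v * u j)
            = (W i j - a * u i * u j) - (W i j0 - a * u i * u j0) * (v * u j)
              + a * u i * u j * (b * p) := by
          have : a * u i * u j * (b * p) = a * u i * u j * (1 - v * u j0) := by
            rw [← hvb]; ring
          rw [this]; ring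
        rw [e]
        exact dvd_add (dvd_sub h1 (Dvd.dvd.mul_right h2 _))
          (Dvd.dvd.mul_left (Dvd.intro_left _ rfl) _)
    choose W' hW' using hdv
    have e : W * E = Matrix.of W' * diagonal d := by
      ext i j
      rw [mul_diagonal, hW' i j, Matrix.of_apply, mul_comm]
    have h3 : W.det = (Matrix.of W').det * ∏ j, d j := by
      rw [← det_diagonal, ← det_mul, ← e, det_mul, hdetE, mul_one]
    have h4 : (p : ℤ) * ∏ j, d j = (p : ℤ) ^ Fintype.card ι := by
      rw [← Finset.mul_prod_erase Finset.univ d (Finset.mem_univ j0)]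
      have : ∏ j ∈ Finset.univ.erase j0, d j = ∏ j ∈ Finset.univ.erase j0, (p : ℤ) := by
        apply Finset.prod_congr rfl; intro j hj
        simp [hd, Finset.ne_of_mem_erase hj]
      rw [this, Finset.prod_const, Finset.card_erase_of_mem (Finset.mem_univ j0),
        Finset.card_univ]
      simp only [hd, if_true, one_mul]
      rw [← pow_succ', Nat.sub_add_cancel (Fintype.card_pos_iff.2 ⟨j0⟩)]
    rw [h3, ← h4]
    exact ⟨(Matrix.of W').det, by ring⟩

end RankOne


section Bord

variable {ι : Type*} [Fintype ι] [DecidableEq ι]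

theorem det_bordered (G W : Matrix ι ι ℤ) (a : ι → ℤ) (s P : ℤ) (hWs : Wᵀ = W)
    (hWG : W * G = P • 1) :
    P * (fromBlocks (Matrix.of (fun _ _ : Unit => s)) (replicateRow Unit a)
      (replicateCol Unit a) G).det = (P * s - (W *ᵥ a) ⬝ᵥ a) * G.det := by
  set E : Matrix (Unit ⊕ ι) (Unit ⊕ ι) ℤ :=
    fromBlocks (Matrix.of (fun _ _ : Unit => P)) (- replicateRow Unit (W *ᵥ a)) 0 1 with hE
  have hdetE : E.det = P := by
    rw [hE, det_fromBlocks_zero₂₁, det_one, mul_one, det_unique, Matrix.of_apply]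
  have hmul : E * fromBlocks (Matrix.of (fun _ _ : Unit => s)) (replicateRow Unit a)
      (replicateCol Unit a) G
      = fromBlocks (Matrix.of (fun _ _ : Unit => P * s - (W *ᵥ a) ⬝ᵥ a)) 0
        (replicateCol Unit a) G := by
    rw [hE, fromBlocks_multiply]
    congr 1
    · ext i j
      rw [Matrix.add_apply, Matrix.neg_mul, Matrix.neg_apply, replicateRow_mul_replicateCol_apply,
        Matrix.mul_apply]
      simp
      ring
    · have e1 : replicateRow Unit (W *ᵥ a) * G = replicateRow Unit (P • a) := by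
        rw [← replicateRow_vecMul, ← vecMul_transpose, vecMul_vecMul, hWs, hWG, vecMul_smul,
          vecMul_one]
      rw [Matrix.neg_mul, e1]
      ext i j
      simp [Matrix.mul_apply]
    · simp
    · simp
  have h := congrArg Matrix.det hmul
  have h1 : (Matrix.of (fun _ _ : Unit => P * s - (W *ᵥ a) ⬝ᵥ a)).det
      = P * s - (W *ᵥ a) ⬝ᵥ a := by rw [det_unique, Matrix.of_apply]
  rw [det_mul, hdetE, det_fromBlocks_zero₁₂, h1] at h
  exact h

end Bord


section Ker

variable {X : Type*} [Fintype X] [DecidableEq X]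

theorem exists_kernel_basis (K : Matrix X X ℤ) :
    ∃ (n : ℕ) (A : Matrix (Fin n) X ℤ) (B : Matrix X (Fin n) ℤ),
      A * B = 1 ∧ K * Aᵀ = 0 ∧ ∀ v : X → ℤ, K *ᵥ v = 0 → Aᵀ *ᵥ (Bᵀ *ᵥ v) = v := by
  set φ : (X → ℤ) →ₗ[ℤ] (X → ℤ) := K.mulVecLin with hφ
  set N := LinearMap.ker φ with hN
  obtain ⟨s, hs⟩ := Module.projective_lifting_property φ.rangeRestrict LinearMap.id
    (LinearMap.surjective_rangeRestrict φ)
  have hs' : ∀ w : LinearMap.range φ, φ (s w) = w := by
    intro w
    have := congrArg (fun g => ((g w : LinearMap.range φ) : X → ℤ)) hs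
    simpa using this
  set ψ : (X → ℤ) →ₗ[ℤ] (X → ℤ) := LinearMap.id - s ∘ₗ φ.rangeRestrict with hψ
  have hmem : ∀ v, ψ v ∈ N := by
    intro v
    rw [hN, LinearMap.mem_ker, hψ]
    simp only [LinearMap.sub_apply, LinearMap.id_apply, LinearMap.comp_apply, map_sub, hs']
    simp
  set π : (X → ℤ) →ₗ[ℤ] N := LinearMap.codRestrict N ψ hmem
    with hπ
  have hπN : ∀ v : N, π (v : X → ℤ) = v := by
    intro v
    apply Subtype.ext
    have h0 : φ.rangeRestrict (v : X → ℤ) = 0 := by
      apply Subtype.ext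
      simp
    simp [hπ, hψ, h0]
  set bN := Module.finBasis ℤ N with hbN
  refine ⟨Module.finrank ℤ N, Matrix.of (fun i x => (bN i : X → ℤ) x),
    Matrix.of (fun x i => bN.repr (π (Pi.single x 1)) i), ?_, ?_, ?_⟩
  all_goals
    have C1 : ∀ v : X → ℤ, (Matrix.of (fun x i => bN.repr (π (Pi.single x 1)) i))ᵀ *ᵥ v
        = fun i => bN.repr (π v) i := by
      intro v
      funext i
      conv_rhs => rw [← Finset.univ_sum_single v]
      rw [map_sum, map_sum, Finsupp.finsetSum_apply]
      simp only [mulVec, dotProduct, Matrix.transpose_apply, Matrix.of_apply]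
      apply Finset.sum_congr rfl; intro x _
      have : (Pi.single x (v x) : X → ℤ) = v x • Pi.single x 1 := by
        rw [← Pi.single_smul]; simp
      rw [this, map_smul, map_smul, Finsupp.smul_apply, smul_eq_mul, mul_comm]
  · ext i j
    have h1 := congrFun (C1 (bN i : X → ℤ)) j
    rw [hπN, Module.Basis.repr_self] at h1
    rw [Matrix.mul_apply, Matrix.one_apply, Finsupp.single_apply] at *
    rw [← h1]
    simp only [mulVec, dotProduct, Matrix.transpose_apply, Matrix.of_apply]
    apply Finset.sum_congr rfl; intro x _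
    ring
  · ext x i
    have h1 : φ (bN i : X → ℤ) = 0 := (bN i).2
    have h2 : (K *ᵥ (bN i : X → ℤ)) x = 0 := congrFun h1 x
    rw [Matrix.mul_apply]
    exact h2
  · intro v hv
    have hvN : v ∈ N := hv
    rw [C1]
    have h1 := hπN ⟨v, hvN⟩
    simp only at h1
    rw [h1]
    have h2 := bN.sum_repr ⟨v, hvN⟩
    have h3 := congrArg (fun w : N => (w : X → ℤ)) h2
    simp only [Submodule.coe_sum, Submodule.coe_smul] at h3
    conv_rhs => rw [← h3]
    funext x
    simp only [mulVec, dotProduct, Matrix.transpose_apply, Matrix.of_apply, Finset.sum_apply,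
      Pi.smul_apply, smul_eq_mul]
    apply Finset.sum_congr rfl; intro i _
    ring


/-- **Lemma L.** -/
theorem lattice_min {p : ℕ} (hp : p.Prime)
    (K : Matrix X X ℤ) (hsymm : Kᵀ = K) (hsq : K * K = (p : ℤ) • K)
    (c : ℤ) (r : X → ℤ) (hcong : ∀ i j, (p : ℤ) ∣ K i j - c * r i * r j)
    (hdiag : ∀ i, K i i ≠ p) (l : ℤ) (htr : K.trace = p * l) (f : X → ℤ) :
    f ⬝ᵥ (K *ᵥ f) = 0 ∨ l ≤ f ⬝ᵥ (K *ᵥ f) := by
  obtain ⟨n, A, B, hAB, hKA, hproj⟩ := exists_kernel_basis K
  have hp0 : (0 : ℤ) < p := by exact_mod_cast hp.pos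
  set K' : Matrix X X ℤ := (p : ℤ) • 1 - K with hK'
  have hKK' : K * K' = 0 := by
    rw [hK', Matrix.mul_sub, hsq, Matrix.mul_smul, Matrix.mul_one, sub_self]
  have hK's : K'ᵀ = K' := by
    rw [hK', Matrix.transpose_sub, Matrix.transpose_smul, Matrix.transpose_one, hsymm]
  have h1 : Aᵀ * (Bᵀ * K') = K' := by
    ext i j
    have hv : K *ᵥ (K' *ᵥ Pi.single j 1) = 0 := by
      rw [mulVec_mulVec, hKK', zero_mulVec]
    have := congrFun (hproj _ hv) i
    rw [mulVec_mulVec, mulVec_mulVec, mulVec_single_one, mulVec_single_one,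
      Matrix.mul_assoc] at this
    exact this
  have h2 : K' * B * A = K' := by
    have := congrArg Matrix.transpose h1
    rw [Matrix.transpose_mul, Matrix.transpose_mul, Matrix.transpose_transpose,
      Matrix.transpose_transpose, hK's] at this
    exact this
  set W : Matrix (Fin n) (Fin n) ℤ := Bᵀ * K' * B with hW
  have hWs : Wᵀ = W := by
    rw [hW, Matrix.transpose_mul, Matrix.transpose_mul, Matrix.transpose_transpose, hK's,
      Matrix.mul_assoc]
  have h3 : Aᵀ * W * A = K' := by
    calc Aᵀ * W * A = Aᵀ * (Bᵀ * (K' * B * A)) := by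
          rw [hW]; simp only [Matrix.mul_assoc]
      _ = K' := by rw [h2, h1]
  have h4 : K' * Aᵀ = (p : ℤ) • Aᵀ := by
    rw [hK', Matrix.sub_mul, hKA, sub_zero, Matrix.smul_mul, Matrix.one_mul]
  set G : Matrix (Fin n) (Fin n) ℤ := A * Aᵀ with hG
  have hGs : Gᵀ = G := by
    rw [hG, Matrix.transpose_mul, Matrix.transpose_transpose]
  have h5 : W * G = (p : ℤ) • 1 := by
    calc W * G = Bᵀ * ((K' * B * A) * Aᵀ) := by
          rw [hW, hG]; simp only [Matrix.mul_assoc]
      _ = (p : ℤ) • (A * B)ᵀ := by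
          rw [h2, h4, Matrix.mul_smul, Matrix.transpose_mul]
      _ = (p : ℤ) • 1 := by rw [hAB, Matrix.transpose_one]
  have h5' : G * W = (p : ℤ) • 1 := by
    have := congrArg Matrix.transpose h5
    rwa [Matrix.transpose_mul, hGs, hWs, Matrix.transpose_smul, Matrix.transpose_one] at this
  have h6 : W.det * G.det = (p : ℤ) ^ n := by
    rw [← det_mul, h5, det_smul, det_one, mul_one, Fintype.card_fin]
  -- the determinant of `W`
  have h7 : (p : ℤ) ^ n ∣ p * W.det := by
    have hT : ∀ x y, (p : ℤ) ∣ K' x y - (-c) * r x * r y := by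
      intro x y
      have e : K' x y - (-c) * r x * r y
          = (p : ℤ) * (1 : Matrix X X ℤ) x y - (K x y - c * r x * r y) := by
        rw [hK', Matrix.sub_apply, Matrix.smul_apply, smul_eq_mul]; ring
      rw [e]
      exact dvd_sub (Dvd.intro _ rfl) (hcong x y)
    choose T hT using hT
    have e1 : K' = (-c) • vecMulVec r r + (p : ℤ) • Matrix.of T := by
      ext x y
      rw [Matrix.add_apply, Matrix.smul_apply, Matrix.smul_apply, vecMulVec_apply, Matrix.of_apply,
        smul_eq_mul, smul_eq_mul, ← hT x y]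
      ring
    have e2 : W = (-c) • vecMulVec (Bᵀ *ᵥ r) (Bᵀ *ᵥ r) + (p : ℤ) • (Bᵀ * Matrix.of T * B) := by
      rw [hW, e1, Matrix.mul_add, Matrix.add_mul, Matrix.mul_smul, Matrix.smul_mul,
        Matrix.mul_smul, Matrix.smul_mul, mul_vecMulVec, vecMulVec_mul, ← mulVec_transpose]
    have := pow_card_dvd_mul_det hp W (-c) (Bᵀ *ᵥ r) (by
      intro i j
      rw [e2, Matrix.add_apply, Matrix.smul_apply, Matrix.smul_apply, vecMulVec_apply, smul_eq_mul,
        smul_eq_mul]
      exact ⟨(Bᵀ * Matrix.of T * B) i j, by ring⟩)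
    rwa [Fintype.card_fin] at this
  obtain ⟨w, hw⟩ := h7
  have h8 : w * G.det = p := by
    have hpn : (p : ℤ) ^ n ≠ 0 := pow_ne_zero _ hp0.ne'
    apply mul_left_cancel₀ hpn
    calc (p : ℤ) ^ n * (w * G.det) = (p * W.det) * G.det := by rw [hw]; ring
      _ = p * (W.det * G.det) := by ring
      _ = (p : ℤ) ^ n * p := by rw [h6]; ring
  have hGgram : G = gramS (fun x i => A i x) Finset.univ := by
    ext i j
    simp [hG, gramS, Matrix.mul_apply, Matrix.sum_apply, vecMulVec_apply]
  have hGpos : 0 < G.det := by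
    have h0 : 0 ≤ G.det := by rw [hGgram]; exact gramS_det_nonneg _ _
    refine lt_of_le_of_ne h0 ?_
    intro h
    rw [← h, mul_zero] at h8
    exact hp0.ne h8
  have hGle : G.det ≤ p := Int.le_of_dvd hp0 ⟨w, by rw [← h8]; ring⟩
  -- the trace
  have htr' : l = Fintype.card X - n := by
    have t1 : K'.trace = p * n := by
      rw [← h3, Matrix.mul_assoc, Matrix.trace_mul_comm, Matrix.mul_assoc, ← hG, h5,
        Matrix.trace_smul, Matrix.trace_one, Fintype.card_fin, smul_eq_mul]
    have t2 : K'.trace = p * Fintype.card X - p * l := by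
      rw [hK', Matrix.trace_sub, Matrix.trace_smul, Matrix.trace_one, htr, smul_eq_mul]
    have t3 : (p : ℤ) * l = p * (Fintype.card X - n) := by linarith
    exact mul_left_cancel₀ hp0.ne' t3
  -- the bordered Gram matrix
  set a : Fin n → ℤ := A *ᵥ f with ha
  set Q : ℤ := f ⬝ᵥ (K *ᵥ f) with hQ
  have hQ' : Q = p * (f ⬝ᵥ f) - (W *ᵥ a) ⬝ᵥ a := by
    have e1 : K = (p : ℤ) • 1 - K' := by rw [hK']; abel
    have e2 : f ⬝ᵥ (K' *ᵥ f) = (W *ᵥ a) ⬝ᵥ a := by
      rw [← h3, ha, ← mulVec_mulVec, ← mulVec_mulVec, dotProduct_mulVec, vecMul_transpose,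
        dotProduct_comm]
    rw [hQ, e1, sub_mulVec, smul_mulVec, one_mulVec, dotProduct_sub, dotProduct_smul, e2,
      smul_eq_mul]
  set wc : X → (Unit ⊕ Fin n) → ℤ := fun x => Sum.elim (fun _ => f x) (fun i => A i x) with hwc
  have h𝒢 : gramS wc Finset.univ = fromBlocks (Matrix.of (fun _ _ : Unit => f ⬝ᵥ f))
      (replicateRow Unit a) (replicateCol Unit a) G := by
    ext i j
    rcases i with i | i <;> rcases j with j | j <;>
      simp [gramS, Matrix.sum_apply, vecMulVec_apply, hwc, dotProduct, ha, mulVec, hG,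
        Matrix.mul_apply, mul_comm]
  have hbord : (p : ℤ) * (gramS wc Finset.univ).det = Q * G.det := by
    rw [h𝒢, det_bordered G W a (f ⬝ᵥ f) p hWs h5, ← hQ']
  have hwc0 : ∀ x, wc x ≠ 0 := by
    intro x hx
    have hA0 : ∀ i, A i x = 0 := fun i => by
      have := congrFun hx (Sum.inr i)
      simpa [hwc] using this
    have : K' x x = 0 := by
      rw [← h3, Matrix.mul_apply]
      apply Finset.sum_eq_zero; intro i _
      rw [hA0 i, mul_zero]
    rw [hK', Matrix.sub_apply, Matrix.smul_apply, Matrix.one_apply_eq, smul_eq_mul, mul_one] at this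
    exact hdiag x (sub_eq_zero.1 this).symm
  by_cases hQ0 : Q = 0
  · left; exact hQ0
  · right
    have hdet0 : (gramS wc Finset.univ).det ≠ 0 := by
      intro h
      rw [h, mul_zero] at hbord
      rcases mul_eq_zero.1 hbord.symm with h' | h'
      · exact hQ0 h'
      · exact hGpos.ne' h'
    have hacl := gramS_card_le wc hwc0 Finset.univ hdet0
    rw [Finset.card_univ, Fintype.card_sum, Fintype.card_fin] at hacl
    simp only [Fintype.card_unit] at hacl
    push_cast at hacl
    have hnn := gramS_det_nonneg wc Finset.univ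
    have h9 : (gramS wc Finset.univ).det ≤ Q := by
      have : G.det * (gramS wc Finset.univ).det ≤ G.det * Q := by
        calc G.det * (gramS wc Finset.univ).det ≤ p * (gramS wc Finset.univ).det :=
              mul_le_mul_of_nonneg_right hGle hnn
          _ = G.det * Q := by rw [hbord]; ring
      exact le_of_mul_le_mul_left this hGpos
    rw [htr']
    linarith

end Ker

end Cfsg.Agent.Lib.Helper81
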