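import Cfsg.Agent.Lib.Helper81.SubsecLattice
import Cfsg.Agent.Lib.Helper81.LatticeMin
import Cfsg.Agent.Lib.Helper4.BrauerR
import Cfsg.Agent.Lib.Helper4.PiPart2

set_option autoImplicit false
set_option linter.unusedSectionVars false
open Cfsg
open scoped ComplexConjugate
open Cfsg.Agent.Lib.Helper20

namespace Cfsg.Agent.Lib.Helper81

section LM

open Matrix

variable {X : Type*} [Fintype X] [DecidableEq X]

/-- Lemma L, with the rank one condition expressed by `2 × 2` minors. -/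
theorem lattice_min' {p : ℕ} (hp : p.Prime)
    (K : Matrix X X ℤ) (hsymm : Kᵀ = K) (hsq : K * K = (p : ℤ) • K)
    (hminor : ∀ i j i' j', (p : ℤ) ∣ K i j * K i' j' - K i j' * K i' j)
    (hdiag : ∀ i, ¬ (p : ℤ) ∣ K i i) (l : ℤ) (htr : K.trace = p * l) (f : X → ℤ) :
    f ⬝ᵥ (K *ᵥ f) = 0 ∨ l ≤ f ⬝ᵥ (K *ᵥ f) := by
  rcases isEmpty_or_nonempty X with hX | ⟨⟨i0⟩⟩
  · left; simp [dotProduct]
  · have hp' : Prime (p : ℤ) := Nat.prime_iff_prime_int.1 hp
    obtain ⟨c, e, hce⟩ : IsCoprime (K i0 i0) (p : ℤ) :=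
      ((hp'.coprime_iff_not_dvd).2 (hdiag i0)).symm
    refine lattice_min hp K hsymm hsq c (fun i => K i i0) ?_ ?_ l htr f
    · intro i j
      have hs : K j i0 = K i0 j := by
        have := congrFun (congrFun hsymm i0) j
        rwa [Matrix.transpose_apply] at this
      have e1 : K i j - c * K i i0 * K j i0
          = c * (K i j * K i0 i0 - K i i0 * K i0 j) + (p : ℤ) * (e * K i j) := by
        have : K i j = K i j * (c * K i0 i0 + e * p) := by rw [hce, mul_one]
        rw [hs]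
        nth_rewrite 1 [this]
        ring
      rw [e1]
      exact dvd_add (Dvd.dvd.mul_left (hminor i j i0 i0) _) (Dvd.intro _ rfl)
    · intro i h
      exact hdiag i (by rw [h])

end LM

section CQ

open Matrix

universe u

variable {G : Type u} [Group G] [Fintype G] {p : ℕ} {M : Ideal AlgInt}

theorem central_pow_eq_one_of_regular (hp : p.Prime) {z g : G} (hz : z ∈ Subgroup.center G) {n : ℕ}
    (hn : orderOf z = p ^ n) (hg : IsPRegular p g) {j : ℕ} (h : IsPRegular p (z ^ j * g)) :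
    z ^ j = 1 := by
  have hcomm : Commute (z ^ j) g :=
    Commute.pow_left (show Commute z g from (Subgroup.mem_center_iff.1 hz g).symm) j
  have hdv : orderOf (z ^ j) ∣ p ^ n := by rw [← hn]; exact orderOf_pow_dvd j
  obtain ⟨k, _, hk⟩ := (Nat.dvd_prime_pow hp).1 hdv
  have hcop : Nat.Coprime (orderOf (z ^ j)) (orderOf g) := by
    rw [hk]; exact Nat.Coprime.pow_left _ ((Nat.Prime.coprime_iff_not_dvd hp).2 hg)
  have hord := hcomm.orderOf_mul_eq_mul_orderOf_of_coprime hcop
  rcases Nat.eq_zero_or_pos k with rfl | hk0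
  · rw [pow_zero] at hk; exact orderOf_eq_one_iff.1 hk
  · exfalso
    apply h
    rw [hord, hk]
    exact Dvd.dvd.mul_right (dvd_pow_self p hk0.ne') _

open Classical in
theorem reg_expand (hM : IsPModular p M) {b : Set (IrrCharacter G)} (hb : IsPBlock M b) {z : G}
    (hz : z ∈ Subgroup.center G) {n : ℕ} (hn : orderOf z = p ^ n) [Fintype (IrrCharacter G)]
    {ζ : IrrCharacter G} (hζ : ζ ∈ b) :
    pRegularPart p (ζ : G → ℂ) = ∑ ξ : IrrCharacter G,
      (if ξ ∈ b ∧ lam z (ξ : G → ℂ) = 1 then (p : ℂ) ^ n * mC p (ζ : G → ℂ) (ξ : G → ℂ) else 0) •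
        pRegularPart p (ξ : G → ℂ) := by
  have hp := hM.1
  set θ := pRegularPart p (ζ : G → ℂ) with hθ
  have hθc : IsClassFunction G θ := Helper81.pRegularPart_classFunction (irr_classFunction ζ)
  set θt : G → ℂ := fun g => ∑ j ∈ Finset.range (p ^ n), θ (z ^ j * g) with hθt
  have hc : IsClassFunction G θt := by
    intro g t
    simp only [hθt]
    apply Finset.sum_congr rfl; intro j _
    have hzj : z ^ j ∈ Subgroup.center G := Subgroup.pow_mem _ hz j
    have e : z ^ j * (t * g * t⁻¹) = t * (z ^ j * g) * t⁻¹ := by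
      have := Subgroup.mem_center_iff.1 hzj t
      calc z ^ j * (t * g * t⁻¹) = (z ^ j * t) * g * t⁻¹ := by group
        _ = (t * z ^ j) * g * t⁻¹ := by rw [this]
        _ = t * (z ^ j * g) * t⁻¹ := by group
    rw [e, hθc]
  have hreg : pRegularPart p θt = θ := by
    funext g
    rw [pRegularPart_eq]
    show (if IsPRegular p g then θt g else 0) = θ g
    split_ifs with hg
    · simp only [hθt]
      rw [Finset.sum_eq_single 0]
      · simp
      · intro j hj hj0
        rw [hθ, pRegularPart_eq]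
        show (if IsPRegular p (z ^ j * g) then _ else _) = _
        rw [if_neg]
        intro hreg
        have h1 := central_pow_eq_one_of_regular hp hz hn hg hreg
        have h2 := orderOf_dvd_of_pow_eq_one h1
        rw [hn] at h2
        exact hj0 (Nat.eq_zero_of_dvd_of_lt h2 (Finset.mem_range.1 hj))
      · intro h0
        exact absurd (Finset.mem_range.2 (pow_pos hp.pos n)) h0
    · rw [hθ, pRegularPart_eq]
      show _ = (if IsPRegular p g then _ else _)
      rw [if_neg hg]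
  have hin : ∀ ξ : IrrCharacter G, classInner θt (ξ : G → ℂ)
      = (if lam z (ξ : G → ℂ) = 1 then ((p ^ n : ℕ) : ℂ) else 0) * mC p (ζ : G → ℂ) (ξ : G → ℂ) := by
    intro ξ
    have e : θt = ∑ j ∈ Finset.range (p ^ n), (fun g => θ (z ^ j * g)) := by
      funext g; simp [hθt]
    rw [e, classInner_sum_left, ← geom_root (by rw [← hn]; exact lam_pow_orderOf ξ.2 hz),
      Finset.sum_mul]
    apply Finset.sum_congr rfl; intro j _
    rw [classInner_shift ξ.2 hz]; rfl
  conv_lhs => rw [← hreg, eq_sum_classInner_smul hc, pRegularPart_sum]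
  apply Finset.sum_congr rfl; intro ξ _
  rw [pRegularPart_smul, hin]
  congr 1
  by_cases hξ : ξ ∈ b
  · by_cases hl : lam z (ξ : G → ℂ) = 1
    · rw [if_pos hl, if_pos ⟨hξ, hl⟩]; push_cast; ring
    · rw [if_neg hl, if_neg (fun h : ξ ∈ b ∧ lam z (ξ : G → ℂ) = 1 => hl h.2), zero_mul]
  · rw [if_neg (fun h : ξ ∈ b ∧ lam z (ξ : G → ℂ) = 1 => hξ h.1)]
    have : ¬ SameBlock M (ζ : G → ℂ) (ξ : G → ℂ) := by
      intro hs
      apply hξ
      rw [isPBlock_eq_blockOf hM hb hζ]
      exact hs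
    rw [mC_eq_zero hM this, mul_zero]

open Classical in
theorem mC_expand (hM : IsPModular p M) {b : Set (IrrCharacter G)} (hb : IsPBlock M b) {z : G}
    (hz : z ∈ Subgroup.center G) {n : ℕ} (hn : orderOf z = p ^ n) [Fintype (IrrCharacter G)]
    {ζ : IrrCharacter G} (hζ : ζ ∈ b) (ξ' : IrrCharacter G) :
    mC p (ζ : G → ℂ) (ξ' : G → ℂ) = ∑ ξ : IrrCharacter G,
      (if ξ ∈ b ∧ lam z (ξ : G → ℂ) = 1 then
        (p : ℂ) ^ n * mC p (ζ : G → ℂ) (ξ : G → ℂ) * mC p (ξ : G → ℂ) (ξ' : G → ℂ) else 0) := by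
  conv_lhs => rw [mC, reg_expand hM hb hz hn hζ, classInner_sum_left]
  apply Finset.sum_congr rfl; intro ξ _
  rw [classInner_smul_left]
  split_ifs
  · rfl
  · rw [zero_mul]

open Classical in
theorem KS_sq (hM : IsPModular p M) {b : Set (IrrCharacter G)} (hb : IsPBlock M b) {z : G}
    (hz : z ∈ Subgroup.center G) {n : ℕ} (hn : orderOf z = p ^ n) [Fintype (IrrCharacter G)]
    {ζ ξ' : IrrCharacter G} (hζ : ζ ∈ b) (hξ' : ξ' ∈ b) :
    (p : ℤ) ^ n * ∑ ξ : IrrCharacter G,
      (if ξ ∈ b ∧ lam z (ξ : G → ℂ) = 1 then KS p b ζ ξ * KS p b ξ ξ' else 0)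
      = (p : ℤ) ^ blockDefect p b * KS p b ζ ξ' := by
  have h : (((p : ℤ) ^ n * ∑ ξ : IrrCharacter G,
      (if ξ ∈ b ∧ lam z (ξ : G → ℂ) = 1 then KS p b ζ ξ * KS p b ξ ξ' else 0) : ℤ) : ℂ)
      = (((p : ℤ) ^ blockDefect p b * KS p b ζ ξ' : ℤ) : ℂ) := by
    push_cast
    simp only [KS]
    rw [if_pos ⟨hζ, hξ'⟩, kC_spec hM ζ hξ', mC_expand hM hb hz hn hζ ξ', Finset.mul_sum,
      Finset.mul_sum, Finset.mul_sum]
    apply Finset.sum_congr rfl; intro ξ _
    by_cases h1 : ξ ∈ b ∧ lam z (ξ : G → ℂ) = 1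
    · rw [if_pos h1, if_pos h1, if_pos ⟨hζ, h1.1⟩, if_pos ⟨h1.1, hξ'⟩]
      push_cast
      rw [kC_spec hM ζ h1.1, kC_spec hM ξ hξ']; ring
    · rw [if_neg h1, if_neg h1]; simp
  exact_mod_cast h

open Classical in
/-- the matrix of `θ ↦ ∑_{ξ ∈ X} p ^ n ⟨θ, ξ⟩ ξ°` -/
noncomputable def regXMatrix (p n : ℕ) (b : Set (IrrCharacter G)) (z : G)
    [Fintype (IrrCharacter G)] : Matrix G G ℂ := fun x y =>
  ∑ ξ : IrrCharacter G, (if ξ ∈ b ∧ lam z (ξ : G → ℂ) = 1 then
    (p : ℂ) ^ n * (Nat.card G : ℂ)⁻¹ * pRegularPart p (ξ : G → ℂ) x * conj ((ξ : G → ℂ) y) else 0)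

open Classical in
theorem regXMatrix_toLin' [Fintype (IrrCharacter G)] (n : ℕ) (b : Set (IrrCharacter G)) (z : G)
    (θ : G → ℂ) :
    Matrix.toLin' (regXMatrix p n b z) θ = ∑ ξ : IrrCharacter G,
      (if ξ ∈ b ∧ lam z (ξ : G → ℂ) = 1 then (p : ℂ) ^ n * classInner θ (ξ : G → ℂ) else 0) •
        pRegularPart p (ξ : G → ℂ) := by
  funext x
  rw [Matrix.toLin'_apply, Matrix.mulVec, dotProduct, Finset.sum_apply]
  simp only [regXMatrix, Finset.sum_mul]
  rw [Finset.sum_comm]
  apply Finset.sum_congr rfl; intro ξ _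
  rw [Pi.smul_apply, smul_eq_mul]
  split_ifs with h
  · rw [classInner, Finset.mul_sum, Finset.mul_sum, Finset.sum_mul]
    apply Finset.sum_congr rfl; intro y _
    ring
  · simp

open Classical in
theorem trace_X (hM : IsPModular p M) {b : Set (IrrCharacter G)} (hb : IsPBlock M b) {z : G}
    (hz : z ∈ Subgroup.center G) {n : ℕ} (hn : orderOf z = p ^ n) [Fintype (IrrCharacter G)] :
    (p : ℂ) ^ n * ∑ ξ : IrrCharacter G,
      (if ξ ∈ b ∧ lam z (ξ : G → ℂ) = 1 then mC p (ξ : G → ℂ) (ξ : G → ℂ) else 0)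
      = (blockRank p b : ℂ) := by
  set W : Submodule ℂ (G → ℂ) :=
    Submodule.span ℂ ((fun χ : IrrCharacter G => pRegularPart p (χ : G → ℂ)) '' b) with hW
  set f : (G → ℂ) →ₗ[ℂ] (G → ℂ) := Matrix.toLin' (regXMatrix p n b z) with hf
  have hproj : LinearMap.IsProj W f := by
    constructor
    · intro θ
      rw [hf, regXMatrix_toLin']
      apply Submodule.sum_mem
      intro ξ _
      split_ifs with hξ
      · exact Submodule.smul_mem _ _ (Submodule.subset_span ⟨ξ, hξ.1, rfl⟩)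
      · simp
    · intro v hv
      induction hv using Submodule.span_induction with
      | mem v hv =>
        obtain ⟨ζ, hζ, rfl⟩ := hv
        rw [hf, regXMatrix_toLin']
        exact (reg_expand hM hb hz hn hζ).symm
      | zero => simp
      | add a b _ _ ha hb => rw [map_add, ha, hb]
      | smul c a _ ha => rw [map_smul, ha]
  have htr := hproj.trace
  rw [hf, Matrix.trace_toLin'_eq] at htr
  have : (blockRank p b : ℂ) = Matrix.trace (regXMatrix p n b z) := by
    rw [htr]; rfl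
  rw [this, Matrix.trace, Finset.mul_sum]
  simp only [Matrix.diag_apply, regXMatrix]
  rw [Finset.sum_comm]
  apply Finset.sum_congr rfl; intro ξ _
  split_ifs with h
  · rw [mC, classInner, Finset.mul_sum, Finset.mul_sum]
    apply Finset.sum_congr rfl; intro x _
    ring
  · simp

open Classical in
theorem exists_int_expand (hM : IsPModular p M) {b : Set (IrrCharacter G)} (hb : IsPBlock M b)
    {z : G} (hz : z ∈ Subgroup.center G) {n : ℕ} (hn : orderOf z = p ^ n)
    [Fintype (IrrCharacter G)] {ζ : IrrCharacter G} (hζ : ζ ∈ b) :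
    ∃ a : IrrCharacter G → ℤ, pRegularPart p (ζ : G → ℂ) = ∑ ξ : IrrCharacter G,
      (if ξ ∈ b ∧ lam z (ξ : G → ℂ) = 1 then (a ξ : ℂ) else 0) • pRegularPart p (ξ : G → ℂ) := by
  have hp := hM.1
  have hG0 : Nat.card G ≠ 0 := Nat.card_pos.ne'
  set m := p ^ (Nat.card G).factorization p with hm
  set n' := Nat.card G / m with hn'
  have hmn : Nat.card G = m * n' := (Nat.ordProj_mul_ordCompl_eq_self (Nat.card G) p).symm
  have hcop : m.Coprime n' := Nat.Coprime.pow_left _ (Nat.coprime_ordCompl hp hG0)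
  obtain ⟨k, hk0, hk1⟩ := Cfsg.Agent.Lib.Helper4.exists_part_exponent hcop
  set θ : G → ℂ := fun g => (ζ : G → ℂ) (g ^ k) with hθ
  have hθc : IsClassFunction G θ := by
    intro g t
    simp only [hθ]
    rw [conj_pow, irr_classFunction ζ]
  have hpow : ∀ x : G, θ (x ^ k) = θ x := by
    intro x
    simp only [hθ]
    rw [Cfsg.Agent.Lib.Helper4.pow_part_pow_part hmn hk0 hk1]
  have hint : ∀ ξ : IrrCharacter G, classInner θ (ξ : G → ℂ) ∈ (Int.castAddHom ℂ).range := by
    intro ξ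
    refine Cfsg.Agent.Lib.Helper4.section_coeff _ hmn hcop hk0 hk1 hθc hpow ?_
      (Cfsg.Agent.Lib.Helper4.isCharacter_of_irr ξ.2)
    intro B _ _ ι _ _ hcard β hβ
    have e : (fun x : B => θ (ι x)) = fun x : B => (ζ : G → ℂ) (ι x) := by
      funext x
      simp only [hθ]
      rw [← map_pow, Cfsg.Agent.Lib.Helper4.pow_eq_self_of_orderOf_dvd
        (dvd_trans (orderOf_dvd_natCard x) hcard) hk1]
    rw [e]
    obtain ⟨c, hc⟩ := Cfsg.Agent.Lib.Helper4.classInner_char_char
      (Cfsg.Agent.Lib.Helper4.isCharacter_comp_hom (Cfsg.Agent.Lib.Helper4.isCharacter_of_irr ζ.2) ι)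
      (Cfsg.Agent.Lib.Helper4.isCharacter_of_irr hβ)
    exact ⟨(c : ℤ), by rw [hc]; simp⟩
  choose a ha using hint
  refine ⟨a, ?_⟩
  have hreg : pRegularPart p θ = pRegularPart p (ζ : G → ℂ) := by
    funext g
    rw [pRegularPart_eq, pRegularPart_eq]
    show (if IsPRegular p g then θ g else 0) = (if IsPRegular p g then (ζ : G → ℂ) g else 0)
    split_ifs with hg
    · simp only [hθ]
      have h1 : orderOf g ∣ n' := by
        have h2 : orderOf g ∣ m * n' := by rw [← hmn]; exact orderOf_dvd_natCard g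
        exact (Nat.Coprime.dvd_of_dvd_mul_left
          (Nat.Coprime.pow_right _ ((Nat.Prime.coprime_iff_not_dvd hp).2 hg).symm) h2)
      rw [Cfsg.Agent.Lib.Helper4.pow_eq_self_of_orderOf_dvd h1 hk1]
    · rfl
  have hshift : ∀ ξ : IrrCharacter G, lam z (ξ : G → ℂ) ≠ 1 → classInner θ (ξ : G → ℂ) = 0 := by
    intro ξ hl
    have h1 := classInner_shift ξ.2 hz 1 θ
    have e : (fun c => θ (z ^ 1 * c)) = θ := by
      funext c
      simp only [hθ, pow_one]
      have hc : Commute z c := (Subgroup.mem_center_iff.1 hz c).symm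
      have hzk : z ^ k = 1 := by
        apply Cfsg.Agent.Lib.Helper4.pow_eq_one_of_orderOf_dvd _ hk0
        rw [hn, hm]
        apply pow_dvd_pow
        have h2 : p ^ n ∣ Nat.card G := by rw [← hn]; exact orderOf_dvd_natCard z
        exact (hp.pow_dvd_iff_le_factorization hG0).1 h2
      rw [hc.mul_pow, hzk, one_mul]
    rw [e, pow_one] at h1
    have h2 : (1 - lam z (ξ : G → ℂ)) * classInner θ (ξ : G → ℂ) = 0 := by
      rw [sub_mul, one_mul, ← h1, sub_self]
    exact (mul_eq_zero.1 h2).resolve_left (sub_ne_zero.2 (Ne.symm hl))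
  have h1 : pRegularPart p (ζ : G → ℂ)
      = blockPart b (pRegularPart p θ) := by
    rw [hreg, blockPart_pRegularPart hM b hb, blockPart_irr, if_pos hζ]
  rw [h1, blockPart_pRegularPart hM b hb]
  conv_lhs => rw [blockPart_eq_sum, pRegularPart_sum]
  apply Finset.sum_congr rfl; intro ξ _
  rw [pRegularPart_smul]
  congr 1
  by_cases hξ : ξ ∈ b
  · by_cases hl : lam z (ξ : G → ℂ) = 1
    · rw [if_pos hξ, if_pos ⟨hξ, hl⟩, ← ha ξ]; rfl
    · rw [if_pos hξ, if_neg (fun h : ξ ∈ b ∧ lam z (ξ : G → ℂ) = 1 => hl h.2), hshift ξ hl]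
  · rw [if_neg hξ, if_neg (fun h : ξ ∈ b ∧ lam z (ξ : G → ℂ) = 1 => hξ h.1)]

theorem kC_not_dvd (hM : IsPModular p M) {B : Set (IrrCharacter G)} (hB : IsPBlock M B)
    {χ : IrrCharacter G} (hχ : χ ∈ B) (h0 : blockHeight p B (χ : G → ℂ) = 0) :
    ¬ (p : ℤ) ∣ kC p B χ χ := by
  intro hdv
  obtain ⟨hn, hv⟩ := nC_of_height_zero hM hB hχ hχ h0
  have h1 := kC_mul hM χ hχ
  have h2 : ((p ^ (minDeg p B + 1) : ℕ) : ℤ) ∣ nC p χ χ := by
    rw [← h1]
    obtain ⟨t, ht⟩ := hdv
    rw [ht]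
    exact ⟨t, by push_cast; ring⟩
  rw [Int.natCast_dvd, hM.1.pow_dvd_iff_le_factorization (Int.natAbs_ne_zero.2 hn), hv,
    (blockHeight_eq_zero_iff hχ).1 h0] at h2
  omega

theorem KS_minor (hM : IsPModular p M) [Fintype (IrrCharacter G)] {b : Set (IrrCharacter G)}
    (hb : IsPBlock M b) (i j i' j' : IrrCharacter G) :
    (p : ℤ) ∣ KS p b i j * KS p b i' j' - KS p b i j' * KS p b i' j := by
  obtain ⟨ρ, σ, hρ, hσ, h⟩ := KS_congr hM hb
  rw [← memLocalIdeal_intCast_iff hM]
  have hK : ∀ a c, MemLocalRing M ((KS p b a c : ℤ) : ℂ) := fun a c => memLocalRing_intCast hM _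
  have e : ((KS p b i j * KS p b i' j' - KS p b i j' * KS p b i' j : ℤ) : ℂ)
      = ((KS p b i j : ℂ) - ρ i * σ j) * (KS p b i' j' : ℂ)
        + (ρ i * σ j) * ((KS p b i' j' : ℂ) - ρ i' * σ j')
        - ((KS p b i j' : ℂ) - ρ i * σ j') * (KS p b i' j : ℂ)
        - (ρ i * σ j') * ((KS p b i' j : ℂ) - ρ i' * σ j) := by
    push_cast; ring
  rw [e]
  exact memLocalIdeal_sub hM (memLocalIdeal_sub hM (memLocalIdeal_add hM
    (memLocalIdeal_mul_right hM (h i j) (hK _ _))
    (memLocalIdeal_mul_left hM (memLocalRing_mul hM (hρ i) (hσ j)) (h i' j')))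
    (memLocalIdeal_mul_right hM (h i j') (hK _ _)))
    (memLocalIdeal_mul_left hM (memLocalRing_mul hM (hρ i) (hσ j')) (h i' j))

theorem qK_congr_reg (hM : IsPModular p M) [Fintype (IrrCharacter G)] (b : Set (IrrCharacter G))
    {f f' : IrrCharacter G → ℤ}
    (h : pRegularPart p (phiS b f) = pRegularPart p (phiS b f')) :
    qK (KS p b) f = qK (KS p b) f' := by
  have h1 := bK_KS hM b f f
  have h2 := bK_KS hM b f' f'
  rw [bK_self, pInner_self_real, h] at h1
  rw [bK_self, pInner_self_real] at h2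
  have : ((qK (KS p b) f : ℤ) : ℂ) = ((qK (KS p b) f' : ℤ) : ℂ) := by rw [h1, h2]
  exact_mod_cast this

open Classical in
/-- every integral combination of `b` agrees on the `p`-regular elements with one supported on the
characters having `z` in their kernel -/
theorem exists_supported (hM : IsPModular p M) {b : Set (IrrCharacter G)} (hb : IsPBlock M b)
    {z : G} (hz : z ∈ Subgroup.center G) {n : ℕ} (hn : orderOf z = p ^ n)
    [Fintype (IrrCharacter G)] (f : IrrCharacter G → ℤ) :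
    ∃ f' : IrrCharacter G → ℤ, (∀ ξ, ¬ (ξ ∈ b ∧ lam z (ξ : G → ℂ) = 1) → f' ξ = 0) ∧
      qK (KS p b) f = qK (KS p b) f' := by
  have hex : ∀ ζ : IrrCharacter G, ∃ a : IrrCharacter G → ℤ, ζ ∈ b →
      pRegularPart p (ζ : G → ℂ) = ∑ ξ : IrrCharacter G,
      (if ξ ∈ b ∧ lam z (ξ : G → ℂ) = 1 then (a ξ : ℂ) else 0) • pRegularPart p (ξ : G → ℂ) := by
    intro ζ
    by_cases hζ : ζ ∈ b
    · obtain ⟨a, ha⟩ := exists_int_expand hM hb hz hn hζ
      exact ⟨a, fun _ => ha⟩
    · exact ⟨0, fun h => absurd h hζ⟩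
  choose a ha using hex
  refine ⟨fun ξ => if ξ ∈ b ∧ lam z (ξ : G → ℂ) = 1 then
    ∑ ζ : IrrCharacter G, (if ζ ∈ b then f ζ * a ζ ξ else 0) else 0, ?_, ?_⟩
  · intro ξ hξ
    simp only [if_neg hξ]
  · apply qK_congr_reg hM
    rw [phiS, phiS, pRegularPart_sum, pRegularPart_sum]
    have e1 : ∀ ζ : IrrCharacter G,
        pRegularPart p ((if ζ ∈ b then (f ζ : ℂ) else 0) • (ζ : G → ℂ))
        = ∑ ξ : IrrCharacter G, (if ξ ∈ b ∧ lam z (ξ : G → ℂ) = 1 then
          (if ζ ∈ b then (f ζ : ℂ) * (a ζ ξ : ℂ) else 0) else 0) • pRegularPart p (ξ : G → ℂ) := by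
      intro ζ
      rw [pRegularPart_smul]
      by_cases hζ : ζ ∈ b
      · rw [if_pos hζ, ha ζ hζ, Finset.smul_sum]
        apply Finset.sum_congr rfl; intro ξ _
        rw [smul_smul]
        congr 1
        split_ifs <;> simp
      · simp [if_neg hζ]
    rw [Finset.sum_congr rfl (fun ζ _ => e1 ζ), Finset.sum_comm]
    apply Finset.sum_congr rfl; intro ξ _
    rw [pRegularPart_smul, ← Finset.sum_smul]
    congr 1
    by_cases hξ : ξ ∈ b ∧ lam z (ξ : G → ℂ) = 1
    · simp only [if_pos hξ, if_pos hξ.1]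
      push_cast
      apply Finset.sum_congr rfl; intro ζ _
      split_ifs <;> simp
    · simp [if_neg hξ]

theorem sum_subtype_ite {α : Type*} [Fintype α] (P : α → Prop) [DecidablePred P]
    [Fintype {x // P x}] (F : α → ℤ) :
    ∑ i : {x // P x}, F i = ∑ x, if P x then F x else 0 := by
  rw [← Finset.sum_filter, Finset.sum_subtype (p := P) (Finset.univ.filter P) (by simp) F]

open Classical in
/-- **the minimum of the Cartan form** of a block of defect two of a group with a central element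
of order `p` -/
theorem central_min (hM : IsPModular p M) {b : Set (IrrCharacter G)} (hb : IsPBlock M b)
    {z : G} (hz : z ∈ Subgroup.center G) (hn : orderOf z = p) (hd : blockDefect p b = 2)
    [Fintype (IrrCharacter G)] (f : IrrCharacter G → ℤ) :
    qK (KS p b) f = 0 ∨ (blockRank p b : ℤ) ≤ qK (KS p b) f := by
  have hp := hM.1
  have hp0 : (p : ℤ) ≠ 0 := by exact_mod_cast hp.ne_zero
  have hn1 : orderOf z = p ^ 1 := by rw [hn, pow_one]
  obtain ⟨f', hsupp, hq⟩ := exists_supported hM hb hz hn1 f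
  rw [hq]
  set P : IrrCharacter G → Prop := fun ξ => ξ ∈ b ∧ lam z (ξ : G → ℂ) = 1 with hP
  set K : Matrix {ξ // P ξ} {ξ // P ξ} ℤ := fun i j => KS p b i j with hK
  have hQ : qK (KS p b) f' = (fun i : {ξ // P ξ} => f' i) ⬝ᵥ (K *ᵥ fun i : {ξ // P ξ} => f' i) := by
    simp only [dotProduct, Matrix.mulVec, hK]
    refine Eq.trans ?_
      (sum_subtype_ite P (fun i => f' i * ∑ j : {ξ // P ξ}, KS p b i j * f' j)).symm
    rw [qK]
    apply Finset.sum_congr rfl; intro i _
    split_ifs with hi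
    · rw [sum_subtype_ite P (fun j => KS p b i j * f' j), Finset.mul_sum]
      apply Finset.sum_congr rfl; intro j _
      split_ifs with hj
      · ring
      · rw [hsupp j hj]; ring
    · apply Finset.sum_eq_zero; intro j _
      rw [hsupp i hi]; ring
  rw [hQ]
  apply lattice_min' hp K
  · ext i j
    exact KS_symm hp b _ _
  · ext i j
    rw [Matrix.mul_apply, Matrix.smul_apply, smul_eq_mul]
    simp only [hK]
    refine Eq.trans (sum_subtype_ite P (fun x => KS p b i x * KS p b x j)) ?_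
    have h := KS_sq hM hb hz hn1 i.2.1 j.2.1
    rw [hd] at h
    apply mul_left_cancel₀ (pow_ne_zero 1 hp0)
    rw [h]; ring
  · intro i j i' j'
    exact KS_minor hM hb _ _ _ _
  · intro i
    have h0 : blockHeight p b ((i : IrrCharacter G) : G → ℂ) = 0 := by
      by_contra hne
      have := height_add_two_le hM hb i.2.1 hne
      omega
    simp only [hK, KS]
    rw [if_pos ⟨i.2.1, i.2.1⟩]
    exact kC_not_dvd hM hb i.2.1 h0
  · rw [Matrix.trace]
    refine Eq.trans (sum_subtype_ite P (fun x => KS p b x x)) ?_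
    have h := trace_X hM hb hz hn1
    have h2 : (((∑ x, if P x then KS p b x x else 0 : ℤ)) : ℂ)
        = (((p : ℤ) * (blockRank p b : ℤ) : ℤ) : ℂ) := by
      push_cast
      rw [← h, pow_one, Finset.mul_sum, Finset.mul_sum]
      apply Finset.sum_congr rfl; intro x _
      by_cases hx : P x
      · rw [if_pos hx, if_pos hx]
        simp only [KS]
        rw [if_pos ⟨hx.1, hx.1⟩, kC_spec hM x hx.1, hd]; ring
      · rw [if_neg hx, if_neg hx]; simp
    exact_mod_cast h2

open Classical in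
theorem blockRank_le_card_ker (hM : IsPModular p M) {b : Set (IrrCharacter G)} (hb : IsPBlock M b)
    {z : G} (hz : z ∈ Subgroup.center G) {n : ℕ} (hn : orderOf z = p ^ n) :
    blockRank p b ≤ Nat.card {ξ : IrrCharacter G // ξ ∈ b ∧ lam z (ξ : G → ℂ) = 1} := by
  have : Finite (IrrCharacter G) := finite_irrCharacter
  have : Fintype (IrrCharacter G) := Fintype.ofFinite _
  rw [Nat.card_eq_fintype_card, blockRank]
  refine le_trans (Submodule.finrank_mono ?_) (finrank_range_le_card (R := ℂ)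
    (fun ξ : {ξ : IrrCharacter G // ξ ∈ b ∧ lam z (ξ : G → ℂ) = 1} =>
      pRegularPart p ((ξ : IrrCharacter G) : G → ℂ)))
  rw [Submodule.span_le]
  rintro _ ⟨ζ, hζ, rfl⟩
  show pRegularPart p (ζ : G → ℂ) ∈ _
  rw [reg_expand hM hb hz hn hζ]
  apply Submodule.sum_mem
  intro ξ _
  split_ifs with hξ
  · exact Submodule.smul_mem _ _ (Submodule.subset_span ⟨⟨ξ, hξ⟩, rfl⟩)
  · simp

end CQ

end Cfsg.Agent.Lib.Helper81
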