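import Cfsg.Agent.Lib.Helper5.MajorNV
import Cfsg.Agent.Lib.Helper78.HeightPair

set_option autoImplicit false
set_option linter.unusedSectionVars false
set_option linter.style.haveILetI false
open Cfsg
open scoped ComplexConjugate
open Cfsg.Agent.Lib.Helper20 Cfsg.Agent.Lib.Helper80
open Cfsg.Agent.Lib.Helper80.GA Cfsg.Agent.Lib.Helper5 Cfsg.Agent.Lib.Helper78

namespace Cfsg.Agent.Lib.Helper81

variable {p : ℕ} [Fact p.Prime] {M : Ideal AlgInt} (hM : IsPModular p M)
  {G : Type*} [Group G] [Fintype G]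

include hM in
/-- every central element of a defect group carries a major subsection -/
theorem exists_major_central {B : Set (IrrCharacter G)} (hB : IsPBlock M B) {P : Subgroup G}
    (hPD : IsDefectGroup p M B P) {x : G} (hx : x ∈ P) (hxc : ∀ d ∈ P, d * x = x * d) :
    ∃ β : Set (IrrCharacter (Subgroup.centralizer ({x} : Set G))),
      (∃ n, SubsecData p M (Subgroup.centralizer ({x} : Set G)) x n β B) ∧
        blockDefect p β = blockDefect p B := by
  have hdef : IsDef p ⊤ (blkR hM B) P := isDef_of_isDefectGroup hM hB hPD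
  obtain ⟨e, hmax⟩ := (isBlk_blkR hM hB).exists_isMaxBP_of_isDef hdef
  have he : IsBP p P e := hmax.1.1
  obtain ⟨f, hf, hle⟩ := he.exists_subpair' (Q := Subgroup.zpowers x)
    (by rw [Subgroup.zpowers_le]; exact hx)
  have hbp : IsBPOf p (blkR hM B) (Subgroup.zpowers x) f := (hle.isBPOf_iff).1 hmax.1
  have hxp : ∃ k : ℕ, orderOf x = p ^ k := by
    obtain ⟨k, hk⟩ := he.1 ⟨x, hx⟩
    have h1 : x ^ (p ^ k) = 1 := by simpa using congrArg Subtype.val hk
    obtain ⟨m, _, hm⟩ := (Nat.dvd_prime_pow Fact.out).1 (orderOf_dvd_of_pow_eq_one h1)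
    exact ⟨m, hm⟩
  have hblk : IsBlk (Subgroup.centralizer ({x} : Set G)) f := by
    rw [centralizer_singleton_eq]; exact hbp.1.2
  obtain ⟨β, hβ, hβeq⟩ := exists_block_of_isBlk_sub hM _ hblk
  have hind : IsInducedBlock M (Subgroup.centralizer ({x} : Set G)) β B := by
    rw [isInducedBlock_centralizer_iff hM hxp hβ hB, ← hβeq]
    exact hbp.2.2
  have hPle : P ≤ Subgroup.centralizer ({x} : Set G) := by
    rw [centralizer_singleton_eq]
    exact le_Cn_zpowers hxc
  have hdefβ : IsDef p (Subgroup.centralizer ({x} : Set G))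
      (bl hM (Subgroup.centralizer ({x} : Set G)) β) P := by
    rw [← hβeq, centralizer_singleton_eq]
    exact isDef_Cn_of_le_Cn hmax hle (le_Cn_zpowers hxc)
  have hβD := (isDefectGroup_sub_iff hM _ hβ hPle).2 hdefβ
  exact ⟨β, major_setup hM hB hPD hx hxc hind hβD⟩

include hM in
/-- a block of positive defect has a major subsection `(z, β)` with `z` of order `p` -/
theorem exists_major_order_p {B : Set (IrrCharacter G)} (hB : IsPBlock M B)
    (hd : blockDefect p B ≠ 0) :
    ∃ z : G, orderOf z = p ∧ ∃ β : Set (IrrCharacter (Subgroup.centralizer ({z} : Set G))),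
      SubsecData p M (Subgroup.centralizer ({z} : Set G)) z 1 β B ∧
        blockDefect p β = blockDefect p B := by
  have hp : p.Prime := Fact.out
  obtain ⟨P, hPD⟩ := Cfsg.Agent.Lib.Helper21.exists_isDefectGroup hM B hB
  have hcard := Cfsg.Agent.Lib.Helper21.card_defectGroup hM B hB P hPD
  have hPp : IsPGroup p P := IsPGroup.of_card hcard
  have hnt : Nontrivial P := by
    rw [← Finite.one_lt_card_iff_nontrivial, hcard]
    exact Nat.one_lt_pow hd hp.one_lt
  have hcnt : Nontrivial (Subgroup.center P) := hPp.center_nontrivial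
  have hdv : p ∣ Nat.card (Subgroup.center P) := by
    obtain ⟨k, hk⟩ := (hPp.to_subgroup (Subgroup.center P)).exists_card_eq
    rw [hk]
    apply dvd_pow_self
    rintro rfl
    rw [pow_zero] at hk
    have := Finite.one_lt_card_iff_nontrivial.2 hcnt
    omega
  obtain ⟨w, hw⟩ := exists_prime_orderOf_dvd_card' p hdv
  set z : G := ((w : P) : G) with hz
  have hzo : orderOf z = p := by
    rw [hz, Subgroup.orderOf_coe, Subgroup.orderOf_coe, hw]
  have hzP : z ∈ P := (w : P).2
  have hzc : ∀ d ∈ P, d * z = z * d := by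
    intro d hd'
    have := Subgroup.mem_center_iff.1 w.2 ⟨d, hd'⟩
    exact congrArg Subtype.val this
  obtain ⟨β, ⟨n, D⟩, hdβ⟩ := exists_major_central hM hB hPD hzP hzc
  have hn1 : n = 1 := by
    have := D.hn
    rw [hzo] at this
    exact (Nat.pow_right_injective hp.two_le (by simpa using this)).symm
  subst hn1
  exact ⟨z, hzo, β, D, hdβ⟩

end Cfsg.Agent.Lib.Helper81
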