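import Cfsg.Agent.Lib.Helper81.CentralQuot
import Cfsg.Agent.Lib.Helper21.QuotDefect
import Cfsg.Agent.Lib.Helper21.Quot

set_option autoImplicit false
set_option linter.unusedSectionVars false
open Cfsg
open scoped ComplexConjugate
open Cfsg.Agent.Lib.Helper20

namespace Cfsg.Agent.Lib.Helper81

section QB

variable {G : Type*} [Group G] [Fintype G] {p : ℕ} {M : Ideal AlgInt}

/-- the block of `G ⧸ N` dominated by `b` -/
def quotBlock (N : Subgroup G) [N.Normal] (b : Set (IrrCharacter G)) :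
    Set (IrrCharacter (G ⧸ N)) := {ξ | Cfsg.Agent.Lib.Helper21.inflIrr N ξ ∈ b}

theorem isPBlock_quotBlock (hM : IsPModular p M) {b : Set (IrrCharacter G)} (hb : IsPBlock M b)
    (N : Subgroup G) [N.Normal] (hN : IsPGroup p N) (hc : N ≤ Subgroup.center G) :
    IsPBlock M (quotBlock N b) := by
  obtain ⟨χ, θ, hθ, hθχ⟩ := Cfsg.Agent.Lib.Helper21.exists_inflation_mem_block hM N hN b hb
  refine ⟨χ, ?_⟩
  ext ψ
  have hiff := Cfsg.Agent.Lib.Helper21.sameBlock_quot_iff hM N hN (by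
    intro g _ hg
    exfalso
    apply hg
    rw [Subgroup.mem_centralizer_iff]
    intro h hh
    exact (Subgroup.mem_center_iff.1 (hc hh) g).symm) χ ψ
  show Cfsg.Agent.Lib.Helper21.inflIrr N ψ ∈ b ↔ SameBlock M (χ : G ⧸ N → ℂ) (ψ : G ⧸ N → ℂ)
  rw [hiff, isPBlock_eq_blockOf hM hb hθ]
  show SameBlock M (θ : G → ℂ) _ ↔ _
  rw [hθχ]
  rfl

theorem card_ker_le_quotBlock {b : Set (IrrCharacter G)} {z : G} (hz : z ∈ Subgroup.center G)
    [(Subgroup.zpowers z).Normal] :
    Nat.card {ξ : IrrCharacter G // ξ ∈ b ∧ lam z (ξ : G → ℂ) = 1}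
      ≤ Nat.card (quotBlock (Subgroup.zpowers z) b) := by
  have : Finite (IrrCharacter (G ⧸ Subgroup.zpowers z)) := finite_irrCharacter
  have hker : ∀ ξ : {ξ : IrrCharacter G // ξ ∈ b ∧ lam z (ξ : G → ℂ) = 1},
      ∀ x ∈ Subgroup.zpowers z, ((ξ : IrrCharacter G) : G → ℂ) x = ((ξ : IrrCharacter G) : G → ℂ) 1 := by
    intro ξ x hx
    obtain ⟨k, rfl⟩ := (mem_powers_iff_mem_zpowers.2 hx)
    have := irr_central_pow_mul ξ.1.2 hz k 1
    rw [ξ.2.2, one_pow, one_mul, mul_one] at this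
    exact this
  refine Nat.card_le_card_of_injective
    (fun ξ => ⟨(Cfsg.Agent.Lib.Helper82.irrQuotEquiv (Subgroup.zpowers z)).symm ⟨ξ.1, hker ξ⟩, ?_⟩) ?_
  · show Cfsg.Agent.Lib.Helper21.inflIrr _ _ ∈ b
    have : Cfsg.Agent.Lib.Helper21.inflIrr (Subgroup.zpowers z)
        ((Cfsg.Agent.Lib.Helper82.irrQuotEquiv (Subgroup.zpowers z)).symm ⟨ξ.1, hker ξ⟩) = ξ.1 := by
      apply Subtype.ext
      funext g
      exact Cfsg.Agent.Lib.Helper82.irrQuotEquiv_symm_apply _ _ g
    rw [this]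
    exact ξ.2.1
  · intro ξ ξ' h
    have h1 := congrArg Subtype.val h
    simp only at h1
    have h2 := (Cfsg.Agent.Lib.Helper82.irrQuotEquiv (Subgroup.zpowers z)).symm.injective h1
    exact Subtype.ext (Subtype.mk.inj h2)

theorem blockDefect_quotBlock_le (hM : IsPModular p M) {b : Set (IrrCharacter G)}
    (hb : IsPBlock M b) {z : G} (hz : z ∈ Subgroup.center G) (hn : orderOf z = p)
    [(Subgroup.zpowers z).Normal] :
    blockDefect p (quotBlock (Subgroup.zpowers z) b) + 1 ≤ blockDefect p b := by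
  classical
  have hp := hM.1
  have : Fintype (G ⧸ Subgroup.zpowers z) := Fintype.ofFinite _
  have hN : IsPGroup p (Subgroup.zpowers z) := by
    apply IsPGroup.of_card (n := 1)
    rw [Nat.card_zpowers, hn, pow_one]
  have hc : Subgroup.zpowers z ≤ Subgroup.center G := by
    rw [Subgroup.zpowers_le]; exact hz
  have hqb := isPBlock_quotBlock hM hb (Subgroup.zpowers z) hN hc
  obtain ⟨ξ, hξ, hmin⟩ := exists_minDeg (p := p) (isPBlock_nonempty hM hqb)
  have h1 : minDeg p b ≤ minDeg p (quotBlock (Subgroup.zpowers z) b) := by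
    rw [← hmin]
    exact minDeg_le (p := p) (show Cfsg.Agent.Lib.Helper21.inflIrr _ ξ ∈ b from hξ)
  have h2 : minDeg p (quotBlock (Subgroup.zpowers z) b)
      ≤ (Nat.card (G ⧸ Subgroup.zpowers z)).factorization p := hmin ▸ nuDeg_le_card ξ
  have h3 : (Nat.card G).factorization p
      = (Nat.card (G ⧸ Subgroup.zpowers z)).factorization p + 1 := by
    rw [Subgroup.card_eq_card_quotient_mul_card_subgroup (Subgroup.zpowers z), Nat.card_zpowers, hn,
      Nat.factorization_mul Nat.card_pos.ne' hp.ne_zero]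
    simp [hp.factorization_self]
  have h4 : blockDefect p b = (Nat.card G).factorization p - minDeg p b := rfl
  have h5 : blockDefect p (quotBlock (Subgroup.zpowers z) b)
      = (Nat.card (G ⧸ Subgroup.zpowers z)).factorization p
        - minDeg p (quotBlock (Subgroup.zpowers z) b) := rfl
  rw [h4, h5, h3]
  omega

end QB

end Cfsg.Agent.Lib.Helper81
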