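import Cfsg.Agent.Lib.Helper81.MajorMin
import Cfsg.Agent.Lib.Helper81.MajorExist
import Cfsg.Agent.Lib.Helper81.QuotBlock
import Cfsg.Agent.Lib.Helper81.PosHeight
import Cfsg.Agent.Lib.Helper81.SubsecBound

set_option autoImplicit false
set_option linter.unusedSectionVars false
open Cfsg
open scoped ComplexConjugate
open Cfsg.Agent.Lib.Helper20

namespace Cfsg.Agent.Lib.Helper81

/-- the Brauer–Feit bound -/
def bfBound (p d : ℕ) : ℕ := if d ≤ 2 then p ^ d else p ^ (2 * d - 2)

theorem bfBound_mono {p : ℕ} (hp : 0 < p) {d d' : ℕ} (h : d ≤ d') : bfBound p d ≤ bfBound p d' := by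
  unfold bfBound
  split_ifs with h1 h2 h2
  · exact Nat.pow_le_pow_right hp h
  · exact Nat.pow_le_pow_right hp (by omega)
  · omega
  · exact Nat.pow_le_pow_right hp (by omega)

theorem normal_of_le_center {G : Type*} [Group G] {N : Subgroup G} (h : N ≤ Subgroup.center G) :
    N.Normal := by
  constructor
  intro n hn g
  have := Subgroup.mem_center_iff.1 (h hn) g
  rw [this, mul_inv_cancel_right]
  exact hn

universe u

theorem card_block_le_bfBound {p : ℕ} [Fact p.Prime] {M : Ideal AlgInt} (hM : IsPModular p M) :
    ∀ (d : ℕ) (G : Type u) [Group G] [Fintype G] (B : Set (IrrCharacter G)), IsPBlock M B →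
      blockDefect p B = d → Nat.card B ≤ bfBound p d := by
  intro d
  induction d using Nat.strong_induction_on with
  | _ d ih =>
    intro G _ _ B hB hd
    classical
    have hp : p.Prime := Fact.out
    have : Finite (IrrCharacter G) := finite_irrCharacter
    have : Fintype (IrrCharacter G) := Fintype.ofFinite _
    have e : Nat.card B = ∑ χ : IrrCharacter G, (if χ ∈ B then 1 else 0) := by
      rw [Nat.card_eq_fintype_card, Fintype.card_subtype, Finset.card_filter]
    have e2 : ((∑ χ : IrrCharacter G, (if χ ∈ B then 1 else 0) : ℕ) : ℤ)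
        = ∑ χ : IrrCharacter G, (if χ ∈ B then (1 : ℤ) else 0) := by
      push_cast
      rfl
    rcases Nat.eq_zero_or_pos d with rfl | hdpos
    · have h1 := brauer_feit hM hB
      rw [hd] at h1
      have h2 : ∑ χ : IrrCharacter G, (if χ ∈ B then 1 else 0)
          ≤ ∑ ψ : IrrCharacter G, (if ψ ∈ B then p ^ (2 * blockHeight p B (ψ : G → ℂ)) else 0) := by
        apply Finset.sum_le_sum; intro χ _
        split_ifs
        · exact Nat.one_le_pow _ _ hp.pos
        · exact le_refl _
      rw [e]
      have hb0 : bfBound p 0 = 1 := by simp [bfBound]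
      rw [hb0]
      rw [mul_zero, pow_zero] at h1
      omega
    · obtain ⟨z, hzo, β, D, hdβ⟩ := exists_major_order_p hM hB (by omega)
      have : Fintype (Subgroup.centralizer ({z} : Set G)) := Fintype.ofFinite _
      have : Finite (IrrCharacter (Subgroup.centralizer ({z} : Set G))) := finite_irrCharacter
      have : Fintype (IrrCharacter (Subgroup.centralizer ({z} : Set G))) := Fintype.ofFinite _
      have hβ : IsPBlock M β := D.hind.1
      set zH : Subgroup.centralizer ({z} : Set G) := ⟨z, D.hyH⟩ with hzH
      have hzc : zH ∈ Subgroup.center (Subgroup.centralizer ({z} : Set G)) := D.center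
      have hzo1 : orderOf zH = p ^ 1 := D.orderOf_mk
      have hzo' : orderOf zH = p := by rw [hzo1, pow_one]
      have hle : Subgroup.zpowers zH ≤ Subgroup.center (Subgroup.centralizer ({z} : Set G)) := by
        rw [Subgroup.zpowers_le]; exact hzc
      have : (Subgroup.zpowers zH).Normal := normal_of_le_center hle
      have : Fintype (Subgroup.centralizer ({z} : Set G) ⧸ Subgroup.zpowers zH) :=
        Fintype.ofFinite _
      have hN : IsPGroup p (Subgroup.zpowers zH) := by
        apply IsPGroup.of_card (n := 1)
        rw [Nat.card_zpowers, hzo1]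
      have hl1 := blockRank_le_card_ker hM hβ hzc hzo1
      have hl2 := card_ker_le_quotBlock (b := β) hzc
      have hdq := blockDefect_quotBlock_le hM hβ hzc hzo'
      have hq := isPBlock_quotBlock hM hβ (Subgroup.zpowers zH) hN hle
      have hih := ih (blockDefect p (quotBlock (Subgroup.zpowers zH) β)) (by omega) _ _ hq rfl
      have hl : blockRank p β ≤ bfBound p (d - 1) :=
        le_trans hl1 (le_trans hl2 (le_trans hih (bfBound_mono hp.pos (by omega))))
      rcases (by omega : d = 1 ∨ d = 2 ∨ 3 ≤ d) with rfl | rfl | h3
      · have hl' : blockRank p β ≤ 2 := by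
          simp [bfBound] at hl; omega
        have key := major_rank_two D hdβ hl'
        rw [hdβ, hd, ← e2, ← e] at key
        simp only [bfBound]
        exact_mod_cast key
      · have key := major_min D hdβ (central_min hM hβ hzc hzo' (by rw [hdβ, hd]))
        rw [hdβ, hd, ← e2, ← e] at key
        simp only [bfBound]
        exact_mod_cast key
      · have hb : bfBound p d = p ^ (2 * d - 2) := by
          simp only [bfBound]; rw [if_neg (by omega)]
        rw [hb]
        by_cases hpos : ∃ ψ ∈ B, blockHeight p B (ψ : G → ℂ) ≠ 0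
        · obtain ⟨ψ, hψ, h0⟩ := hpos
          have := two_mul_card_le_of_pos_height hM hB hψ h0
          rw [hd, ← e] at this
          omega
        · push Not at hpos
          have h1 := card_height_zero_sq_le (Subgroup.centralizer ({z} : Set G)) hM hp D.hn D.hyH
            D.hcomm D.hC D.hind B (fun χ hχ => ⟨hχ, hpos χ hχ⟩)
          rw [hdβ, hd] at h1
          have h2 : bfBound p (d - 1) ≤ p ^ (2 * d - 4) := by
            simp only [bfBound]
            split_ifs with h4
            · exact Nat.pow_le_pow_right hp.pos (by omega)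
            · exact Nat.pow_le_pow_right hp.pos (by omega)
          have h3' : Nat.card B ^ 2 ≤ (p ^ (2 * d - 2)) ^ 2 := by
            calc Nat.card B ^ 2 ≤ p ^ (2 * d) * blockRank p β := h1
              _ ≤ p ^ (2 * d) * p ^ (2 * d - 4) := Nat.mul_le_mul_left _ (le_trans hl h2)
              _ = (p ^ (2 * d - 2)) ^ 2 := by
                  rw [← pow_add, ← pow_mul]; congr 1; omega
          exact (Nat.pow_le_pow_iff_left (by norm_num)).1 h3'

end Cfsg.Agent.Lib.Helper81
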