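import Cfsg.Agent.Lib.Helper81.MajorMin
import Cfsg.Agent.Lib.Helper81.SubsecBound

set_option autoImplicit false
set_option linter.unusedSectionVars false
open Cfsg
open scoped ComplexConjugate
open Cfsg.Agent.Lib.Helper20

namespace Cfsg.Agent.Lib.Helper81

section Count

theorem count_lemma' {ι : Type*} [Fintype ι] (Bs Bs' : ι → Prop) [DecidablePred Bs]
    [DecidablePred Bs'] (t : ι → ℕ → ℂ)
    {p : ℕ} (hp : p.Prime) (n : ℕ) (c T : ℤ)
    (hT : ∀ j ∈ Jp p n, ∑ χ, (if Bs χ then t χ j else 0) = (T : ℂ))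
    (h : ∀ χ, Bs χ → ∃ E : ℤ, 0 ≤ E ∧ (Bs' χ → c * ((p : ℤ) - 1) ≤ E) ∧
      ∑ j ∈ Jp p n, t χ j = ((p ^ n : ℕ) : ℂ) * (E : ℂ)) :
    c * ∑ χ, (if Bs χ ∧ Bs' χ then (1 : ℤ) else 0) ≤ T := by
  choose! E hE0 hE1 hE2 using h
  have h1 : ∑ χ, (if Bs χ then ∑ j ∈ Jp p n, t χ j else 0) = ((Jp p n).card : ℂ) * (T : ℂ) := by
    have : ∀ χ, (if Bs χ then ∑ j ∈ Jp p n, t χ j else 0)
        = ∑ j ∈ Jp p n, (if Bs χ then t χ j else 0) := by
      intro χ; split_ifs
      · rfl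
      · simp
    simp only [this]
    rw [Finset.sum_comm, Finset.sum_congr rfl hT, Finset.sum_const, nsmul_eq_mul]
  have h2 : ∑ χ, (if Bs χ then ∑ j ∈ Jp p n, t χ j else 0)
      = ((p ^ n : ℕ) : ℂ) * ((∑ χ, (if Bs χ then E χ else 0) : ℤ) : ℂ) := by
    push_cast
    rw [Finset.mul_sum]
    apply Finset.sum_congr rfl; intro χ _
    split_ifs with hχ
    · rw [hE2 χ hχ]; push_cast; rfl
    · simp
  rw [h1] at h2
  have hc := card_Jp hp n
  have h3 : ((Jp p n).card : ℤ) = (p : ℤ) ^ n * ((p : ℤ) - 1) := by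
    have : ((Jp p n).card : ℤ) + (p : ℤ) ^ n = (p : ℤ) ^ (n + 1) := by exact_mod_cast hc
    rw [pow_succ] at this
    linarith
  have h4 : ((Jp p n).card : ℤ) * T = (p : ℤ) ^ n * ∑ χ, (if Bs χ then E χ else 0) := by
    exact_mod_cast h2
  rw [h3, mul_assoc] at h4
  have hpn : (p : ℤ) ^ n ≠ 0 := pow_ne_zero _ (by exact_mod_cast hp.ne_zero)
  have h5 := mul_left_cancel₀ hpn h4
  have h6 : ∑ χ, (if Bs χ ∧ Bs' χ then c * ((p : ℤ) - 1) else 0)
      ≤ ∑ χ, (if Bs χ then E χ else 0) := by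
    apply Finset.sum_le_sum; intro χ _
    by_cases hχ : Bs χ
    · rw [if_pos hχ]
      split_ifs with h'
      · exact hE1 χ hχ h'.2
      · exact hE0 χ hχ
    · rw [if_neg hχ, if_neg (fun h' : Bs χ ∧ Bs' χ => hχ h'.1)]
  have h7 : ∑ χ, (if Bs χ ∧ Bs' χ then c * ((p : ℤ) - 1) else 0)
      = ((p : ℤ) - 1) * (c * ∑ χ, (if Bs χ ∧ Bs' χ then (1 : ℤ) else 0)) := by
    rw [Finset.mul_sum, Finset.mul_sum]
    apply Finset.sum_congr rfl; intro χ _
    split_ifs
    · ring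
    · ring
  rw [h7, ← h5] at h6
  have hp1 : (0 : ℤ) < (p : ℤ) - 1 := by
    have : (1 : ℤ) < p := by exact_mod_cast hp.one_lt
    linarith
  exact le_of_mul_le_mul_left h6 hp1

end Count

section K0

variable {G : Type*} [Group G] [Fintype G] {p : ℕ} {M : Ideal AlgInt} {H : Subgroup G} [Fintype H]
  {y : G} {n : ℕ} {b : Set (IrrCharacter H)} {B : Set (IrrCharacter G)}

theorem diag_ne_zero_of_height_zero (D : SubsecData p M H y n b B) {χ : IrrCharacter G}
    (hχ : χ ∈ B) (h0 : blockHeight p B (χ : G → ℂ) = 0) :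
    (p : ℂ) ^ blockDefect p b * mS p H b y (χ : G → ℂ) (χ : G → ℂ) ≠ 0 := by
  classical
  have : Finite (IrrCharacter H) := finite_irrCharacter
  have : Fintype (IrrCharacter H) := Fintype.ofFinite _
  intro hz
  have h1 := pow_mul_mS_eq D 1 χ χ
  rw [pow_one, hz] at h1
  have h2 := sum_int_mul_root_sub D.hM (k := n) (aC H p b χ χ) (fun i => muS D i ^ 1)
    (fun i => by rw [pow_one]; exact muS_pow D i dvd_rfl)
  rw [← h1, zero_sub] at h2
  have h3 := memLocalIdeal_neg h2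
  rw [neg_neg, memLocalIdeal_intCast_iff D.hM] at h3
  exact sum_aC_not_dvd H D.hM D.hind hχ hχ h0 h0 h3

open Classical in
/-- any subsection: `m k₀(B) ≤ p ^ d(b) l(b)` if the nonzero values of the Cartan form are `≥ m` -/
theorem k0_min (D : SubsecData p M H y n b B)
    [Fintype (IrrCharacter G)] [Fintype (IrrCharacter H)] (m : ℤ) (hm : 0 ≤ m)
    (hq : ∀ f, qK (KS p b) f = 0 ∨ m ≤ qK (KS p b) f) :
    m * ∑ χ : IrrCharacter G,
      (if χ ∈ B ∧ blockHeight p B (χ : G → ℂ) = 0 then (1 : ℤ) else 0)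
      ≤ (p : ℤ) ^ blockDefect p b * (blockRank p b : ℤ) := by
  have hM := D.hM
  have hp := hM.1
  have hp1 : (0 : ℤ) ≤ (p : ℤ) - 1 := by
    have : (1 : ℤ) ≤ p := by exact_mod_cast hp.one_lt.le
    linarith
  have hμ : ∀ ζ, lamS D ζ ^ (p ^ (n + 1)) = 1 :=
    fun ζ => lamS_pow D ζ (pow_dvd_pow p (Nat.le_succ n))
  have hDj : ∀ j ∈ Jp p n, SubsecData p M H (y ^ j) n b B :=
    fun j hj => D.pow (coprime_of_mem_Jp hj)
  have h1J := one_mem_Jp hp n
  have D1 := hDj 1 h1J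
  exact count_lemma' (fun χ : IrrCharacter G => χ ∈ B)
    (fun χ : IrrCharacter G => blockHeight p B (χ : G → ℂ) = 0)
    (fun χ j => (p : ℂ) ^ blockDefect p b * mS p H b (y ^ j) (χ : G → ℂ) (χ : G → ℂ)) hp n
    m ((p : ℤ) ^ blockDefect p b * (blockRank p b : ℤ))
    (by
      intro j hj
      have Dj := hDj j hj
      have h3 := sum_mS_diag Dj.hM H (y ^ j) ⟨n, Dj.hn⟩ Dj.hyH Dj.hcomm Dj.hC Dj.hind
      push_cast
      rw [← h3, Finset.mul_sum]
      apply Finset.sum_congr rfl; intro χ _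
      split_ifs <;> simp)
    (by
      intro χ hχ
      obtain ⟨E, hE, hsum⟩ := vec_parseval hp (KS p b) (fun ζ => (cZ H χ ζ : ℤ)) (lamS D) hμ
        m hm hq
      have hF : ∑ j ∈ Jp p n,
          (p : ℂ) ^ blockDefect p b * mS p H b (y ^ j) (χ : G → ℂ) (χ : G → ℂ)
          = ((p ^ n : ℕ) : ℂ) * (E : ℂ) := by
        rw [← hsum]; apply Finset.sum_congr rfl; intro j _; exact F_expand D j χ χ
      refine ⟨E, ?_, ?_, hF⟩
      · rcases hE with hE | hE
        · rw [hE]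
        · exact le_trans (mul_nonneg hp1 hm) hE
      · intro h0
        rcases hE with hE | hE
        · exfalso
          rw [hE, Int.cast_zero, mul_zero] at hF
          have := eq_zero_of_sum_ofReal
            (fun j => (p : ℝ) ^ blockDefect p b * rowR p H b B (y ^ j) (χ : G → ℂ))
            (fun j _ => mul_nonneg (by positivity) (rowR_nonneg _ _))
            (fun j hj => diag_real (hDj j hj) _) hF 1 h1J
          exact diag_ne_zero_of_height_zero D1 hχ h0 this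
        · linarith)

end K0

end Cfsg.Agent.Lib.Helper81
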