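import Cfsg.Agent.Lib.Helper81.DefectBound
import Cfsg.Agent.Lib.Helper81.KZeroMin
import Cfsg.Agent.Lib.Helper21.PrincipalOver
import Cfsg.Agent.Lib.Helper80.BlockBasic

set_option autoImplicit false
set_option linter.unusedSectionVars false
open Cfsg
open scoped ComplexConjugate
open Cfsg.Agent.Lib.Helper20

namespace Cfsg.Agent.Lib.Helper81

section PS

universe u

variable {G : Type u} [Group G] [Fintype G] {p : ℕ} {M : Ideal AlgInt}

theorem blockDefect_quotBlock_le' (hM : IsPModular p M) {b : Set (IrrCharacter G)}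
    (hb : IsPBlock M b) {z : G} (hz : z ∈ Subgroup.center G) {n : ℕ} (hn : orderOf z = p ^ n)
    [(Subgroup.zpowers z).Normal] :
    blockDefect p (quotBlock (Subgroup.zpowers z) b) + n ≤ blockDefect p b := by
  classical
  have hp := hM.1
  have : Fintype (G ⧸ Subgroup.zpowers z) := Fintype.ofFinite _
  have hN : IsPGroup p (Subgroup.zpowers z) := by
    apply IsPGroup.of_card (n := n)
    rw [Nat.card_zpowers, hn]
  have hc : Subgroup.zpowers z ≤ Subgroup.center G := by
    rw [Subgroup.zpowers_le]; exact hz
  have hqb := isPBlock_quotBlock hM hb (Subgroup.zpowers z) hN hc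
  obtain ⟨ξ, hξ, hmin⟩ := exists_minDeg (p := p) (isPBlock_nonempty hM hqb)
  have h1 : minDeg p b ≤ minDeg p (quotBlock (Subgroup.zpowers z) b) := by
    rw [← hmin]
    exact minDeg_le (p := p) (show Cfsg.Agent.Lib.Helper21.inflIrr _ ξ ∈ b from hξ)
  have h2 : minDeg p (quotBlock (Subgroup.zpowers z) b)
      ≤ (Nat.card (G ⧸ Subgroup.zpowers z)).factorization p := hmin ▸ nuDeg_le_card ξ
  have h3 : (Nat.card G).factorization p
      = (Nat.card (G ⧸ Subgroup.zpowers z)).factorization p + n := by
    rw [Subgroup.card_eq_card_quotient_mul_card_subgroup (Subgroup.zpowers z), Nat.card_zpowers, hn,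
      Nat.factorization_mul Nat.card_pos.ne' (pow_ne_zero _ hp.ne_zero)]
    simp [hp.factorization_self]
  have h4 : blockDefect p b = (Nat.card G).factorization p - minDeg p b := rfl
  have h5 : blockDefect p (quotBlock (Subgroup.zpowers z) b)
      = (Nat.card (G ⧸ Subgroup.zpowers z)).factorization p
        - minDeg p (quotBlock (Subgroup.zpowers z) b) := rfl
  rw [h4, h5, h3]
  omega

/-- a block of defect at most two of a group with a nontrivial central `p`-element: the nonzero
values of the Cartan form are at least `l(b)` -/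
theorem central_min_small [Fact p.Prime] (hM : IsPModular p M) {b : Set (IrrCharacter G)}
    (hb : IsPBlock M b) {z : G} (hz : z ∈ Subgroup.center G) {n : ℕ} (hn : orderOf z = p ^ n)
    (hn0 : n ≠ 0) (hd : blockDefect p b ≤ 2) [Fintype (IrrCharacter G)]
    (f : IrrCharacter G → ℤ) :
    qK (KS p b) f = 0 ∨ (blockRank p b : ℤ) ≤ qK (KS p b) f := by
  classical
  by_cases hcase : n = 1 ∧ blockDefect p b = 2
  · obtain ⟨rfl, hd2⟩ := hcase
    exact central_min hM hb hz (by rw [hn, pow_one]) hd2 f
  · have hle : Subgroup.zpowers z ≤ Subgroup.center G := by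
      rw [Subgroup.zpowers_le]; exact hz
    have : (Subgroup.zpowers z).Normal := normal_of_le_center hle
    have : Fintype (G ⧸ Subgroup.zpowers z) := Fintype.ofFinite _
    have hN : IsPGroup p (Subgroup.zpowers z) := by
      apply IsPGroup.of_card (n := n)
      rw [Nat.card_zpowers, hn]
    have hl1 := blockRank_le_card_ker hM hb hz hn
    have hl2 := card_ker_le_quotBlock (b := b) hz
    have hdq := blockDefect_quotBlock_le' hM hb hz hn
    have hq := isPBlock_quotBlock hM hb (Subgroup.zpowers z) hN hle
    have h0 : blockDefect p (quotBlock (Subgroup.zpowers z) b) = 0 := by omega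
    have hc := card_block_le_bfBound hM 0 _ _ hq h0
    have hb0 : bfBound p 0 = 1 := by simp [bfBound]
    rw [hb0] at hc
    have hl : (blockRank p b : ℤ) ≤ 1 := by exact_mod_cast le_trans hl1 (le_trans hl2 hc)
    have hnn := qK_KS_nonneg hM b f
    by_cases h : qK (KS p b) f = 0
    · left; exact h
    · right; omega

open Classical in
theorem principal_k0_le [Fact p.Prime] (hM : IsPModular p M) (x : G) {k : ℕ}
    (hk : orderOf x = p ^ k)
    (hν : (Nat.card (Subgroup.centralizer ({x} : Set G))).factorization p ≤ 2) :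
    Nat.card {χ : IrrCharacter G // χ ∈ principalBlock M G ∧ ¬ p ∣ charDegree (χ : G → ℂ)}
      ≤ p ^ 2 := by
  have hp : p.Prime := Fact.out
  have : Finite (IrrCharacter G) := finite_irrCharacter
  have : Fintype (IrrCharacter G) := Fintype.ofFinite _
  set B := principalBlock M G with hBdef
  have hB : IsPBlock M B := Cfsg.Agent.Lib.Helper80.isPBlock_principal M
  have hht : ∀ χ : IrrCharacter G, ¬ p ∣ charDegree (χ : G → ℂ) →
      blockHeight p B (χ : G → ℂ) = 0 := by
    intro χ h
    unfold blockHeight
    rw [Nat.factorization_eq_zero_of_not_dvd h, Nat.zero_sub]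
  rcases Nat.eq_zero_or_pos k with rfl | hkpos
  · rw [pow_zero, orderOf_eq_one_iff] at hk
    subst hk
    have htop : Subgroup.centralizer ({1} : Set G) = ⊤ := by
      ext g; simp [Subgroup.mem_centralizer_iff]
    rw [htop, Subgroup.card_top] at hν
    have hd : blockDefect p B ≤ 2 := le_trans (Nat.sub_le _ _) hν
    have h1 := card_block_le_bfBound hM _ G B hB rfl
    have h2 := bfBound_mono (p := p) hp.pos hd
    have h3 : bfBound p 2 = p ^ 2 := by simp [bfBound]
    have h4 : Nat.card {χ : IrrCharacter G // χ ∈ B ∧ ¬ p ∣ charDegree (χ : G → ℂ)}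
        ≤ Nat.card B :=
      Nat.card_le_card_of_injective (fun χ => (⟨χ.1, χ.2.1⟩ : B)) (by
        intro a c h
        exact Subtype.ext (congrArg (fun t : B => (t : IrrCharacter G)) h))
    omega
  · set H := Subgroup.centralizer ({x} : Set G) with hH
    have : Fintype H := Fintype.ofFinite _
    have : Finite (IrrCharacter H) := finite_irrCharacter
    have : Fintype (IrrCharacter H) := Fintype.ofFinite _
    have hxH : x ∈ H := by
      rw [hH, Subgroup.mem_centralizer_iff]
      intro h hh; rw [Set.mem_singleton_iff.1 hh]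
    have hP : IsPGroup p (Subgroup.zpowers x) := by
      apply IsPGroup.of_card (n := k)
      rw [Nat.card_zpowers, hk]
    have hind : IsInducedBlock M H (principalBlock M H) B :=
      Cfsg.Agent.Lib.Helper21.isInducedBlock_principal hM hP
        (by rw [Subgroup.zpowers_le]; exact hxH)
        (Subgroup.centralizer_le (by
          intro y hy; rw [Set.mem_singleton_iff.1 hy]; exact Subgroup.mem_zpowers x))
    have D : SubsecData p M H x k (principalBlock M H) B :=
      ⟨hM, hk, hxH, fun c => Subgroup.mem_centralizer_iff.1 c.2 x rfl, le_rfl, hind⟩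
    have hd : blockDefect p (principalBlock M H) ≤ 2 := le_trans (Nat.sub_le _ _) hν
    have hq := central_min_small hM hind.1 D.center D.orderOf_mk hkpos.ne' hd
    have e : Nat.card {χ : IrrCharacter G // χ ∈ B ∧ ¬ p ∣ charDegree (χ : G → ℂ)}
        = ∑ χ : IrrCharacter G, (if χ ∈ B ∧ ¬ p ∣ charDegree (χ : G → ℂ) then 1 else 0) := by
      rw [Nat.card_eq_fintype_card, Fintype.card_subtype, Finset.card_filter]
    have e2 : ((∑ χ : IrrCharacter G,
        (if χ ∈ B ∧ ¬ p ∣ charDegree (χ : G → ℂ) then 1 else 0) : ℕ) : ℤ)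
        ≤ ∑ χ : IrrCharacter G,
          (if χ ∈ B ∧ blockHeight p B (χ : G → ℂ) = 0 then (1 : ℤ) else 0) := by
      push_cast
      apply Finset.sum_le_sum; intro χ _
      by_cases h : χ ∈ B ∧ ¬ p ∣ charDegree (χ : G → ℂ)
      · rw [if_pos h, if_pos ⟨h.1, hht χ h.2⟩]
      · rw [if_neg h]; split_ifs <;> norm_num
    set k0 : ℤ := ∑ χ : IrrCharacter G,
      (if χ ∈ B ∧ blockHeight p B (χ : G → ℂ) = 0 then (1 : ℤ) else 0) with hk0
    have hpd : (p : ℤ) ^ blockDefect p (principalBlock M H) ≤ (p : ℤ) ^ 2 := by
      exact_mod_cast Nat.pow_le_pow_right hp.pos hd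
    have key : k0 ≤ (p : ℤ) ^ 2 := by
      rcases Nat.eq_zero_or_pos (blockRank p (principalBlock M H)) with hl0 | hlpos
      · have h1 := k0_min D 1 (by norm_num) (by
          intro f
          have hnn := qK_KS_nonneg hM (principalBlock M H) f
          omega)
        rw [hl0] at h1
        simp only [Nat.cast_zero, mul_zero, one_mul] at h1
        have : (0 : ℤ) ≤ (p : ℤ) ^ 2 := by positivity
        linarith
      · have h1 := k0_min D (blockRank p (principalBlock M H) : ℤ) (by positivity) hq
        have hl' : (0 : ℤ) < (blockRank p (principalBlock M H) : ℤ) := by exact_mod_cast hlpos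
        have h2 : (blockRank p (principalBlock M H) : ℤ) * k0
            ≤ (blockRank p (principalBlock M H) : ℤ) *
              (p : ℤ) ^ blockDefect p (principalBlock M H) := by linarith
        exact le_trans (le_of_mul_le_mul_left h2 hl') hpd
    rw [e]
    have : ((∑ χ : IrrCharacter G,
        (if χ ∈ B ∧ ¬ p ∣ charDegree (χ : G → ℂ) then 1 else 0) : ℕ) : ℤ) ≤ ((p ^ 2 : ℕ) : ℤ) := by
      push_cast at e2 key ⊢
      exact le_trans e2 key
    exact_mod_cast this

end PS

end Cfsg.Agent.Lib.Helper81
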