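import Mathlib

set_option autoImplicit false

namespace Cfsg.Agent.Lib.Helper81

theorem sambale_arith {ι : Type*} (S : Finset ι) (A : ι → ℤ) (Q l : ℕ)
    (hodd : ∀ i ∈ S, Odd (A i)) (hpos : ∀ i ∈ S, 0 ≤ A i)
    (h1 : ∀ i ∈ S, (S.card : ℤ) ≤ Q * A i) (h2 : ∑ i ∈ S, A i ≤ Q * l) :
    (Odd (Nat.sqrt l) → S.card ≤ Nat.sqrt l * Q) ∧
      (¬ Odd (Nat.sqrt l) → (Nat.sqrt l + 1) * S.card ≤ l * Q) := by
  rcases S.eq_empty_or_nonempty with rfl | hne
  · simp
  obtain ⟨i₀, hi₀, hmin⟩ := Finset.exists_min_image S A hne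
  set a := A i₀ with ha
  set s := Nat.sqrt l with hs
  have hs1 : (s : ℤ) * s ≤ l := by exact_mod_cast Nat.sqrt_le l
  have hs2 : (l : ℤ) < (s + 1) * (s + 1) := by exact_mod_cast Nat.lt_succ_sqrt l
  have hc : (S.card : ℤ) * a ≤ Q * l := by
    have := Finset.card_nsmul_le_sum S A a hmin
    rw [nsmul_eq_mul] at this
    exact this.trans h2
  have hca : (S.card : ℤ) ≤ Q * a := h1 i₀ hi₀
  have hao : Odd a := hodd i₀ hi₀
  have ha0 : 0 ≤ a := hpos i₀ hi₀
  have hQ : (0 : ℤ) ≤ Q := Int.natCast_nonneg Q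
  have hk : (0 : ℤ) ≤ S.card := Int.natCast_nonneg _
  have hs0 : (0 : ℤ) ≤ s := Int.natCast_nonneg _
  constructor
  · intro hso
    have hso' : Odd (s : ℤ) := by exact_mod_cast hso
    have goal : (S.card : ℤ) ≤ s * Q := by
      by_cases hle : a ≤ s
      · nlinarith
      · have h3 : (s : ℤ) + 2 ≤ a := by
          obtain ⟨t, ht⟩ := hao
          obtain ⟨r, hr⟩ := hso'
          omega
        have h4 : (S.card : ℤ) * (s + 2) ≤ (s * Q) * (s + 2) := by nlinarith
        exact le_of_mul_le_mul_right h4 (by linarith)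
    exact_mod_cast goal
  · intro hse
    have hse' : Even (s : ℤ) := by
      rw [Nat.not_odd_iff_even] at hse
      exact_mod_cast hse
    have goal : ((s : ℤ) + 1) * S.card ≤ l * Q := by
      by_cases hle : (s : ℤ) + 1 ≤ a
      · nlinarith
      · have h3 : a ≤ (s : ℤ) - 1 := by
          obtain ⟨t, ht⟩ := hao
          obtain ⟨r, hr⟩ := hse'
          omega
        have h4 : (S.card : ℤ) ≤ Q * ((s : ℤ) - 1) := hca.trans (mul_le_mul_of_nonneg_left h3 hQ)
        have h5 : ((s : ℤ) + 1) * S.card ≤ ((s : ℤ) + 1) * (Q * ((s : ℤ) - 1)) :=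
          mul_le_mul_of_nonneg_left h4 (by linarith)
        have h6 : ((s : ℤ) + 1) * (Q * ((s : ℤ) - 1)) = Q * (s * s - 1) := by ring
        have h7 : (Q : ℤ) * (s * s - 1) ≤ Q * l := mul_le_mul_of_nonneg_left (by linarith) hQ
        linarith
    exact_mod_cast goal

end Cfsg.Agent.Lib.Helper81
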